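import Cfsg.Agent.FT.Basic2
import Cfsg.Agent.H3.NatMod
import Mathlib.FieldTheory.Finite.Basic

/-! Counting cosets; automorphisms of finite fields of characteristic two. -/

set_option autoImplicit false
set_option linter.unusedSectionVars false

namespace Cfsg.LT

open Subgroup Cfsg.L0 Cfsg.FT

section
variable {G : Type*} [Group G] {A B : Subgroup G} {β : Type*}

theorem ri_le (φ : G → β) {T : Set β} (hf : T.Finite)
    (h : ∀ x ∈ A, ∀ y ∈ A, φ x = φ y → x⁻¹ * y ∈ B) (hT : ∀ x ∈ A, φ x ∈ T) :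
    B.relIndex A ≤ T.ncard := by
  have := hf.to_subtype
  refine Nat.card_le_card_of_injective (fun q : A ⧸ B.subgroupOf A => (⟨φ q.out, hT _ q.out.2⟩ : T))
    fun q r e => ?_
  rw [← q.out_eq, ← r.out_eq]
  exact QuotientGroup.eq.2 (h _ q.out.2 _ r.out.2 (congrArg Subtype.val e))

theorem le_ri [Finite G] (φ : G → β) {T : Set β}
    (h : ∀ x ∈ A, ∀ y ∈ A, x⁻¹ * y ∈ B → φ x = φ y) (hT : ∀ t ∈ T, ∃ x ∈ A, φ x = t) :
    T.ncard ≤ B.relIndex A := by
  choose f hf e using hT
  refine Nat.card_le_card_of_injective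
    (fun t : T => (QuotientGroup.mk ⟨f t.1 t.2, hf _ _⟩ : A ⧸ B.subgroupOf A)) fun t u k => ?_
  have k' := QuotientGroup.eq.1 (show (QuotientGroup.mk ⟨f t.1 t.2, hf _ _⟩ : A ⧸ B.subgroupOf A) =
    QuotientGroup.mk ⟨f u.1 u.2, hf _ _⟩ from k)
  exact Subtype.ext ((e _ t.2).symm.trans ((h _ (hf _ _) _ (hf _ _) k').trans (e _ u.2)))

theorem ri_two (h : ∀ x ∈ A, ∀ y ∈ A, x ∉ B → y ∉ B → x⁻¹ * y ∈ B) : B.relIndex A ≤ 2 := by
  have := ri_le (A := A) (B := B) (fun x => x ∈ B) Set.finite_univ (fun x hx y hy e => by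
    by_cases k : x ∈ B
    · exact mul_mem (inv_mem k) (e ▸ k)
    · exact h x hx y hy k (e ▸ k)) fun _ _ => trivial
  simpa using this

theorem card_le_ri {n : ℕ} (h : B.relIndex A ≤ n) : ♯A ≤ ♯(B ⊓ A) * n := by
  rw [← card_inf_mul_ri B A]; exact Nat.mul_le_mul_left _ h

theorem card_le_set (φ : G → β) {T : Set β} (hf : T.Finite)
    (h : ∀ x ∈ A, ∀ y ∈ A, φ x = φ y → x = y) (hT : ∀ x ∈ A, φ x ∈ T) : ♯A ≤ T.ncard := by
  rw [← relIndex_bot_left]
  exact ri_le φ hf (fun x hx y hy e => by rw [h x hx y hy e]; simp) hT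

end

variable {F : Type*} [Field F] [Fintype F] [CharP F 2]

theorem h2 (F : Type*) [Field F] [CharP F 2] : (2 : F) = 0 := CharTwo.two_eq_zero

theorem eq_one_of_pow {a : F} {n : ℕ} (h : a ^ 2 ^ n = 1) : a = 1 := by
  have : (a + 1) ^ 2 ^ n = 0 := by rw [add_pow_char_pow, h, one_pow, CharTwo.add_self_eq_zero]
  exact (CharTwo.add_eq_zero).1 (pow_eq_zero_iff (by positivity) |>.1 this)

theorem isot {γ α β : F → F} (ha : ∀ x y, γ (x + y) = γ x + γ y) (hi : ∀ x, γ x = 0 → x = 0)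
    (h : ∀ x y, γ (x * y) = α x * β y) : ∃ (σ : F ≃+* F) (a b : F), a ≠ 0 ∧ b ≠ 0 ∧
      (∀ x, α x = a * σ x) ∧ (∀ x, β x = b * σ x) ∧ ∀ x, γ x = a * b * σ x := by
  have e1 : γ 1 = α 1 * β 1 := by simpa using h 1 1
  have n1 : γ 1 ≠ 0 := fun e => one_ne_zero (hi _ e)
  have na : α 1 ≠ 0 := fun e => n1 (by rw [e1, e, zero_mul])
  have nb : β 1 ≠ 0 := fun e => n1 (by rw [e1, e, mul_zero])
  have e2 : ∀ x, γ x = α x * β 1 := fun x => by simpa using h x 1
  have e3 : ∀ x, γ x = α 1 * β x := fun x => by simpa using h 1 x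
  let f : F →+* F :=
    { toFun := fun x => γ x / γ 1
      map_one' := div_self n1
      map_mul' := fun x y => by rw [h, e2 x, e3 y, e1]; field_simp
      map_zero' := by rw [show γ 0 = 0 by simpa using ha 0 0, zero_div]
      map_add' := fun x y => by rw [ha, add_div] }
  have bj : Function.Bijective f := Finite.injective_iff_bijective.1 f.injective
  refine ⟨RingEquiv.ofBijective f bj, α 1, β 1, na, nb, fun x => ?_, fun x => ?_, fun x => ?_⟩ <;>
    change _ = _ * (γ x / γ 1)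
  · rw [e2 x, e1]; field_simp
  · rw [e3 x, e1]; field_simp
  · rw [← e1]; field_simp

theorem aut_uniq {σ τ : F ≃+* F} (h : ∀ t, σ (σ t) = t) (h' : ∀ t, τ (τ t) = t)
    (n : ¬ ∀ t, σ t = t) (n' : ¬ ∀ t, τ t = t) (t : F) : σ t = τ t := by
  classical
  let := ZMod.algebra F 2
  let f : (F ≃+* F) → (F ≃ₐ[ZMod 2] F) := fun σ => AlgEquiv.ofRingEquiv (f := σ) fun x =>
    DFunLike.congr_fun (Subsingleton.elim ((σ : F →+* F).comp (algebraMap (ZMod 2) F)) _) x
  have := Fintype.ofFinite (F ≃ₐ[ZMod 2] F)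
  have c := IsCyclic.card_pow_eq_one_le (α := F ≃ₐ[ZMod 2] F) (n := 2) two_pos
  by_contra ne
  have : ({1, f σ, f τ} : Finset _).card ≤ 2 := le_trans (Finset.card_le_card fun a ha => by
    simp only [Finset.mem_insert, Finset.mem_singleton] at ha
    rcases ha with rfl | rfl | rfl <;> simp only [Finset.mem_filter, Finset.mem_univ, true_and]
    exacts [one_pow 2, AlgEquiv.ext h, AlgEquiv.ext h']) c
  rw [Finset.card_eq_three.2 ⟨1, f σ, f τ, fun e => n fun t => (DFunLike.congr_fun e t).symm,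
    fun e => n' fun t => (DFunLike.congr_fun e t).symm, fun e => ne (DFunLike.congr_fun e t),
    rfl⟩] at this
  omega

/-- fixed points of a semilinear map -/
def Fx (c : F) (σ : F ≃+* F) : Set F := {t | c * σ t = t}

theorem fx_sq (c : F) {σ : F ≃+* F} (n : ¬ ∀ t, σ t = t) :
    (Fx c σ).ncard * (Fx c σ).ncard ≤ Fintype.card F := by
  obtain ⟨w, hw⟩ := not_forall.1 n
  rw [← Nat.card_eq_fintype_card, ← Nat.card_coe_set_eq, ← Nat.card_prod]
  refine Nat.card_le_card_of_injective (fun p : Fx c σ × Fx c σ => p.1.1 + w * p.2.1) ?_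
  rintro ⟨⟨a, ha⟩, b, hb⟩ ⟨⟨a', ha'⟩, b', hb'⟩ e
  simp only [Fx, Set.mem_ofPred_eq] at ha hb ha' hb' e
  have k := congrArg (fun x => c * σ x) e
  simp only [map_add, map_mul] at k
  have : (σ w - w) * (b - b') = 0 := by
    linear_combination k - e - ha + ha' - σ w * hb + σ w * hb'
  have eb : b = b' := sub_eq_zero.1 ((mul_eq_zero.1 this).resolve_left (sub_ne_zero.2 hw))
  subst eb
  obtain rfl : a = a' := add_right_cancel e
  rfl

theorem fx_two {c : F} {σ : F ≃+* F} (h : ∀ t, c * σ (c * σ t) = t) (h4 : 4 < Fintype.card F) :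
    ∃ s t, s ≠ 0 ∧ t ≠ 0 ∧ s ≠ t ∧ c * σ s = s ∧ c * σ t = t := by
  classical
  by_contra n
  push Not at n
  have m : ∀ t, c * σ (t + c * σ t) = t + c * σ t := fun t => by rw [map_add, mul_add, h, add_comm]
  obtain ⟨u, hu⟩ : ∃ u, ∀ t, c * σ t = t → t = 0 ∨ t = u := by
    by_cases k : ∃ u, u ≠ 0 ∧ c * σ u = u
    · obtain ⟨u, u0, hu⟩ := k
      exact ⟨u, fun t ht => by_contra fun q => n t u (fun e => q (.inl e)) u0
        (fun e => q (.inr e)) ht hu⟩
    · exact ⟨0, fun t ht => .inl (by_contra fun q => k ⟨t, q, ht⟩)⟩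
  obtain ⟨w, hw⟩ : ∃ w, ∀ t, t + c * σ t = 0 ∨ t + c * σ t = w + c * σ w := by
    by_cases k : ∃ w, w + c * σ w ≠ 0
    · obtain ⟨w, w0⟩ := k
      exact ⟨w, fun t => (hu _ (m t)).imp_right fun e => e.trans ((hu _ (m w)).resolve_left w0).symm⟩
    · exact ⟨0, fun t => .inl (by_contra fun q => k ⟨t, q⟩)⟩
  have : (Finset.univ : Finset F) ⊆ {0, u, w, w + u} := fun t _ => by
    simp only [Finset.mem_insert, Finset.mem_singleton]
    rcases hw t with e | e
    · rcases hu t (CharTwo.add_eq_zero.1 e).symm with e | e <;> simp [e]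
    · rcases hu (t + w) (by rw [map_add]; linear_combination e + (c * σ w - t) * h2 F) with e | e
      · exact .inr (.inr (.inl (CharTwo.add_eq_zero.1 e)))
      · exact .inr (.inr (.inr (by linear_combination e - w * h2 F)))
  exact absurd ((Finset.card_le_card this).trans Finset.card_le_four) (by simpa using h4)

theorem exists_big {n : ℕ} (h1 : 1 < n) (h : n < Fintype.card F) : ∃ l : F, l ≠ 0 ∧ l ^ (n - 1) ≠ 1 := by
  classical
  by_contra k
  push Not at k
  have := FiniteField.X_pow_card_sub_X_ne_zero F (p := n) h1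
  have e := Polynomial.card_le_degree_of_subset_roots (Z := (Finset.univ : Finset F))
    (p := Polynomial.X ^ n - Polynomial.X) fun a _ => by
      rw [Polynomial.mem_roots this]
      obtain ⟨m, rfl⟩ := Nat.exists_eq_add_of_lt h1
      by_cases a0 : a = 0
      · simp [a0]
      · have := k a a0
        simp only [add_tsub_cancel_right] at this
        simp [pow_succ, this]
  rw [FiniteField.X_pow_card_sub_X_natDegree_eq F h1] at e
  simp at e; omega

theorem fix_cube {σ : F ≃+* F} (h4 : 4 < Fintype.card F) (h : ∀ l : F, σ (l ^ 3) = l ^ 3) (t : F) :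
    σ t = t := by
  by_contra n
  have k : ∀ x : F, σ x ≠ x → x ^ 2 + x + 1 = 0 := fun x hx => by
    have e1 := h x
    have e2 := h (x + 1)
    simp only [map_pow, map_add, map_one] at e1 e2
    have a : (σ x + x) * (σ x + x + 1) = 0 := by
      linear_combination e2 - e1 + (- σ x ^ 2 - σ x + σ x * x + 2 * x ^ 2 + 2 * x) * h2 F
    have b : σ x = x + 1 := by
      have := (mul_eq_zero.1 a).resolve_left fun e => hx (CharTwo.add_eq_zero.1 e)
      linear_combination this - (x + 1) * h2 F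
    rw [b] at e1
    linear_combination e1 - (x ^ 2 + x) * h2 F
  obtain ⟨l, l0, hl⟩ := exists_big (n := 4) (by omega) h4
  refine hl ?_
  by_cases q : σ l = l
  · have := k (t + l) (by rw [map_add, q]; exact fun e => n (add_right_cancel e))
    have e : l * (l + 1) = 0 := by linear_combination this - k t n - t * l * h2 F
    rw [CharTwo.add_eq_zero.1 ((mul_eq_zero.1 e).resolve_left l0), one_pow]
  · linear_combination (l - 1) * k l q

end Cfsg.LT
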