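import Cfsg.Agent.LT.A1
import Cfsg.Agent.H3.AutL

/-! Recognition of `PSL₃(F)` in characteristic two from two copies of `SL₂(F)`. -/

set_option autoImplicit false
set_option linter.unusedSectionVars false

namespace Cfsg.LT

open Subgroup Cfsg.L0 Cfsg.FT Cfsg.H3 Matrix
open scoped MatrixGroups

variable {F : Type*} [Field F] [Fintype F] [CharP F 2]

/-- the Weyl element -/
def W (F : Type*) [Field F] : SL(2, F) := U 1 * Lo 1 * U 1

theorem W_coe : (W F).1 = !![0, 1; 1, 0] := by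
  ext i j; fin_cases i <;> fin_cases j <;> simp [W, U_coe, Lo_coe, CharTwo.add_self_eq_zero]

theorem sl_ext2 {A B : SL(2, F)} (h0 : A.1 0 0 = B.1 0 0) (h1 : A.1 0 1 = B.1 0 1)
    (h2 : A.1 1 0 = B.1 1 0) (h3 : A.1 1 1 = B.1 1 1) : A = B := by
  ext i j; fin_cases i <;> fin_cases j <;> assumption

theorem det2 (A : SL(2, F)) : A.1 0 0 * A.1 1 1 + A.1 0 1 * A.1 1 0 = 1 := by
  have := A.2; rw [det_fin_two] at this; grind

theorem dg_coe (a : Fˣ) : (dg a).1 = !![(a : F), 0; 0, (a : F)⁻¹] := by simp [dg, mkSL_coe]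

theorem W_sq : W F * W F = 1 := by apply sl_ext2 <;> simp [W_coe]

theorem W_inv : (W F)⁻¹ = W F := inv_eq_of_mul_eq_one_left W_sq

theorem Lo_eq (t : F) : Lo t = W F * U t * (W F)⁻¹ := by
  rw [W_inv]; apply sl_ext2 <;> simp [W_coe, U_coe, Lo_coe]

/-- diagonal matrices -/
def dH (F : Type*) [Field F] : Fˣ →* SL(2, F) := MonoidHom.mk' dg fun a b => by
  ext i j; fin_cases i <;> fin_cases j <;> simp [dg, mkSL_coe, mul_comm]

theorem bruhat (A : SL(2, F)) : (∃ t a, A = U t * dg a) ∨ ∃ t u a, A = U t * W F * (U u * dg a) := by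
  have d := det2 A
  by_cases h : A.1 1 0 = 0
  · have n : A.1 0 0 ≠ 0 := by grind
    refine .inl ⟨A.1 0 1 * A.1 0 0, .mk0 _ n, ?_⟩
    apply sl_ext2 <;> simp [U_coe, dg_coe, h] <;> grind
  · refine .inr ⟨A.1 0 0 / A.1 1 0, A.1 1 1 * A.1 1 0, .mk0 _ h, ?_⟩
    apply sl_ext2 <;> simp [U_coe, dg_coe, W_coe] <;> grind

theorem sl2_ind {P : SL(2, F) → Prop} (hU : ∀ t, P (U t)) (hL : ∀ t, P (Lo t))
    (hm : ∀ A B, P A → P B → P (A * B)) (A : SL(2, F)) : P A := by
  refine AutL.sl_induction P (fun i j h c => ?_) hm A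
  fin_cases i <;> fin_cases j
  · exact absurd rfl h
  · convert hU c using 1
    apply sl_ext2 <;> simp [SpecialLinearGroup.transvection_coe, U_coe]
  · convert hL c using 1
    apply sl_ext2 <;> simp [SpecialLinearGroup.transvection_coe, Lo_coe]
  · exact absurd rfl h

/-- the relations -/
structure A2 (F : Type*) [Field F] (Γ : Type*) [Group Γ] where
  s : Bool → SL(2, F) →* Γ
  z : F → Γ
  za : ∀ x y, z (x + y) = z x * z y
  c : ∀ i A x y, s i A * (z x * s (!i) (U y)) * (s i A)⁻¹ =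
    z (A.1 0 0 * x + A.1 0 1 * y) * s (!i) (U (A.1 1 0 * x + A.1 1 1 * y))
  d : ∀ i b, s (!i) (dg b) * s i (W F) * (s (!i) (dg b))⁻¹ = s i (W F * dg b)
  br : s true (W F) * s false (W F) * s true (W F) = s false (W F) * s true (W F) * s false (W F)

namespace A2

variable {Γ : Type*} [Group Γ] [Finite Γ] (a : A2 F Γ) {i : Bool}

theorem z0 : a.z 0 = 1 := by simpa using a.za 0 0

theorem cz (i : Bool) {A : SL(2, F)} (h : A.1 1 0 = 0) (x : F) :
    a.s i A * a.z x * (a.s i A)⁻¹ = a.z (A.1 0 0 * x) := by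
  simpa [h, U_zero] using a.c i A x 0

theorem zU (i : Bool) (x y : F) : a.s i (U y) * a.z x = a.z x * a.s i (U y) := by
  simpa [U_coe, mul_inv_eq_iff_eq_mul] using a.cz i (A := U y) (by simp [U_coe]) x

/-- the unipotent radical -/
def V (i : Bool) : Subgroup Γ where
  carrier := {g | ∃ x y, g = a.z x * a.s (!i) (U y)}
  one_mem' := ⟨0, 0, by simp [a.z0, U_zero]⟩
  mul_mem' := by
    rintro _ _ ⟨x, y, rfl⟩ ⟨x', y', rfl⟩
    exact ⟨x + x', y + y', by rw [a.za, U_add, map_mul, mul_assoc, ← mul_assoc (a.s _ _), a.zU]; group⟩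
  inv_mem' := by
    rintro _ ⟨x, y, rfl⟩
    refine ⟨-x, -y, ?_⟩
    rw [_root_.mul_inv_rev, ← a.zU, U_neg, map_inv, eq_inv_of_mul_eq_one_left (show a.z (-x) * a.z x = 1 by
      rw [← a.za, neg_add_cancel, a.z0])]

/-- a parabolic subgroup -/
def P (i : Bool) : Subgroup Γ := a.V i ⊔ (a.s i).range ⊔ ((a.s (!i)).comp (dH F)).range

/-- the group generated -/
def K : Subgroup Γ := (a.s true).range ⊔ (a.s false).range

theorem zV (x : F) : a.z x ∈ a.V i := ⟨x, 0, by simp [U_zero]⟩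

theorem UV (x : F) : a.s (!i) (U x) ∈ a.V i := ⟨0, x, by simp [a.z0]⟩

theorem VP : a.V i ≤ a.P i := le_sup_left.trans le_sup_left

theorem sP (A : SL(2, F)) : a.s i A ∈ a.P i := mem_sup_left (mem_sup_right ⟨A, rfl⟩)

theorem dP (b : Fˣ) : a.s (!i) (dg b) ∈ a.P i := mem_sup_right ⟨b, rfl⟩

theorem sK (i : Bool) (A : SL(2, F)) : a.s i A ∈ a.K := by
  cases i; exacts [mem_sup_right ⟨A, rfl⟩, mem_sup_left ⟨A, rfl⟩]

theorem YV : (a.s i).range ≤ 𝒩 (a.V i) := by
  rintro _ ⟨A, rfl⟩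
  refine H8.mem_normalizer_of_forall ?_
  rintro _ ⟨x, y, rfl⟩
  exact ⟨_, _, a.c i A x y⟩

theorem HV : ((a.s (!i)).comp (dH F)).range ≤ 𝒩 (a.V i) := by
  rintro _ ⟨b, rfl⟩
  refine H8.mem_normalizer_of_forall ?_
  rintro _ ⟨x, y, rfl⟩
  refine ⟨b * x, b * y * b, ?_⟩
  have e : U (b * y * b : F) = dg b * U y * (dg b)⁻¹ := by
    rw [eq_mul_inv_iff_mul_eq]; apply sl_ext2 <;> simp [U_coe, dg_coe]
  have := a.cz (!i) (A := dg b) (by simp [dg_coe]) x
  simp only [dg_coe, of_apply, cons_val', cons_val_zero, cons_val_fin_one] at this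
  rw [e, ← this, map_mul, map_mul, map_inv]
  change a.s (!i) (dg b) * _ * (a.s (!i) (dg b))⁻¹ = _
  group

theorem HY : ((a.s (!i)).comp (dH F)).range ≤ 𝒩 (a.s i).range := by
  rintro _ ⟨b, rfl⟩
  refine H8.mem_normalizer_of_forall ?_
  rintro _ ⟨A, rfl⟩
  change a.s (!i) (dg b) * _ * (a.s (!i) (dg b))⁻¹ ∈ _
  have hm : ∀ A B, a.s (!i) (dg b) * a.s i A * (a.s (!i) (dg b))⁻¹ ∈ (a.s i).range →
      a.s (!i) (dg b) * a.s i B * (a.s (!i) (dg b))⁻¹ ∈ (a.s i).range →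
      a.s (!i) (dg b) * a.s i (A * B) * (a.s (!i) (dg b))⁻¹ ∈ (a.s i).range := fun A B h h' => by
    convert mul_mem h h' using 1; rw [map_mul]; group
  have hU : ∀ t, a.s (!i) (dg b) * a.s i (U t) * (a.s (!i) (dg b))⁻¹ ∈ (a.s i).range := fun t => by
    have := a.c (!i) (dg b) 0 t
    simp [dg_coe, a.z0] at this
    exact ⟨_, this.symm⟩
  refine sl2_ind (P := fun A => a.s (!i) (dg b) * a.s i A * (a.s (!i) (dg b))⁻¹ ∈ (a.s i).range)
    hU (fun t => ?_) hm A
  rw [Lo_eq, W_inv]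
  exact hm _ _ (hm _ _ ⟨_, (a.d i b).symm⟩ (hU t)) ⟨_, (a.d i b).symm⟩

theorem PV : a.P i ≤ 𝒩 (a.V i) := sup_le (sup_le (le_norm _) a.YV) a.HV

theorem mem_P {p : Γ} (h : p ∈ a.P i) :
    ∃ x y A b, p = a.z x * a.s (!i) (U y) * a.s i A * a.s (!i) (dg b) := by
  obtain ⟨u, hu, _, ⟨b, rfl⟩, rfl⟩ := (mem_sup_l (le_norm_sup a.HV a.HY)).1 h
  obtain ⟨_, ⟨x, y, rfl⟩, _, ⟨A, rfl⟩, rfl⟩ := (mem_sup_l a.YV).1 hu
  exact ⟨x, y, A, b, rfl⟩

theorem w_inv (i : Bool) : (a.s i (W F))⁻¹ = a.s i (W F) := by rw [← map_inv, W_inv]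

theorem wz (i : Bool) (x : F) : a.s i (W F) * a.z x * (a.s i (W F))⁻¹ = a.s (!i) (U x) := by
  simpa [W_coe, a.z0, U_zero] using a.c i (W F) x 0

theorem wU (i : Bool) (x : F) : a.s i (W F) * a.s (!i) (U x) * (a.s i (W F))⁻¹ = a.z x := by
  simpa [W_coe, a.z0, U_zero] using a.c i (W F) 0 x

theorem zw (x : F) : a.z x ∈ cj (a.s (!i) (W F)) (a.P i) := by
  have := a.wU (!i) x
  rw [Bool.not_not] at this
  exact this ▸ conj_mem_cj (a.sP _)

theorem Uw (x : F) : a.s i (U x) ∈ cj (a.s (!i) (W F)) (a.P i) := by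
  have := a.wz (!i) x
  rw [Bool.not_not] at this
  exact this ▸ conj_mem_cj (a.VP (a.zV _))

theorem step (x y t : F) (b c : Fˣ) : ∃ p ∈ a.P i, a.z x * a.s (!i) (U y) * a.s i (U t * dg b) *
    a.s (!i) (dg c) * a.s (!i) (W F) = a.s (!i) (U y) * a.s (!i) (W F) * p := by
  have h1 : a.s i (dg b) ∈ cj (a.s (!i) (W F)) (a.P i) := by
    have := a.d (!i) b
    rw [Bool.not_not, mul_inv_eq_iff_eq_mul, map_mul] at this
    rw [mem_cj, mul_assoc, this, mul_assoc, inv_mul_cancel_left]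
    exact mul_mem (a.dP _) (a.sP _)
  have h2 : a.s (!i) (dg c) ∈ cj (a.s (!i) (W F)) (a.P i) := by
    rw [mem_cj, ← map_inv, ← map_mul, ← map_mul, W_inv, show W F * dg c * W F = dg c⁻¹ by
      apply sl_ext2 <;> simp [W_coe, dg_coe]]
    exact a.dP _
  refine ⟨_, mem_cj.1 (mul_mem (mul_mem (mul_mem (a.zw x) (a.Uw t)) h1) h2), ?_⟩
  rw [← a.zU, map_mul]; group

/-- the two double cosets -/
def S (i : Bool) (g : Γ) : Prop :=
  g ∈ a.P i ∨ ∃ p ∈ a.P i, ∃ q ∈ a.P i, g = p * a.s (!i) (W F) * q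

variable {a}

theorem S.mul {g p q : Γ} (h : a.S i g) (hp : p ∈ a.P i) (hq : q ∈ a.P i) : a.S i (p * g * q) := by
  rcases h with h | ⟨u, hu, v, hv, rfl⟩
  · exact .inl (mul_mem (mul_mem hp h) hq)
  · exact .inr ⟨_, mul_mem hp hu, _, mul_mem hv hq, by group⟩

theorem S_w : a.S i (a.s (!i) (W F)) := .inr ⟨1, one_mem _, 1, one_mem _, by group⟩

theorem S_s (A : SL(2, F)) : a.S i (a.s (!i) A) := by
  rcases bruhat A with ⟨t, b, rfl⟩ | ⟨t, u, b, rfl⟩ <;> simp only [map_mul]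
  · exact .inl (mul_mem (a.VP (a.UV _)) (a.dP _))
  · exact S_w.mul (a.VP (a.UV _)) (mul_mem (a.VP (a.UV _)) (a.dP _))

theorem S_key {p : Γ} (hp : p ∈ a.P i) : a.S i (a.s (!i) (W F) * p * a.s (!i) (W F)) := by
  obtain ⟨x, y, A, b, rfl⟩ := a.mem_P hp
  rcases bruhat A with ⟨t, c, rfl⟩ | ⟨t, u, c, rfl⟩
  · obtain ⟨p, hp, e⟩ := a.step (i := i) x y t c b
    rw [mul_assoc, e]
    convert (S_s (W F * U y * W F)).mul (one_mem _) hp using 1
    simp only [map_mul]; group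
  · obtain ⟨x', y', e'⟩ := conj_mem_of_norm' (a.YV ⟨U t * W F, rfl⟩) (show _ ∈ a.V i from ⟨x, y, rfl⟩)
    obtain ⟨p, hp, e⟩ := a.step (i := i) x' y' u c b
    have br : a.s (!i) (W F) * a.s i (W F) * a.s (!i) (W F) =
        a.s i (W F) * a.s (!i) (W F) * a.s i (W F) := by cases i; exacts [a.br, a.br.symm]
    have h1 := mem_cj.1 (mul_mem (a.Uw (i := i) t) (a.zw y'))
    convert S_w.mul (mul_mem h1 (a.sP (W F))) (mul_mem (a.sP (W F)) hp) using 1
    rw [← e'] at e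
    rw [← a.wU i y']
    calc _ = a.s (!i) (W F) * a.s i (U t * W F) * ((a.s i (U t * W F))⁻¹ * (a.z x * a.s (!i) (U y)) *
          a.s i (U t * W F) * a.s i (U u * dg c) * a.s (!i) (dg b) * a.s (!i) (W F)) := by
          rw [map_mul _ (U t * W F)]; group
      _ = (a.s (!i) (W F))⁻¹ * a.s i (U t) * a.s i (W F) * a.s (!i) (U y') * (a.s i (W F))⁻¹ *
          (a.s i (W F) * a.s (!i) (W F) * a.s i (W F)) * (a.s i (W F))⁻¹ * p := by
          rw [e, map_mul, a.w_inv (!i)]; group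
      _ = _ := by rw [← br]; nth_rewrite 2 [a.w_inv i]; group

theorem S.w {g : Γ} (h : a.S i g) : a.S i (a.s (!i) (W F) * g) := by
  rcases h with h | ⟨u, hu, v, hv, rfl⟩
  · simpa using S_w.mul (one_mem _) h
  · convert (S_key hu).mul (one_mem _) hv using 1; group

theorem S_K {g : Γ} (hg : g ∈ a.K) : a.S i g := by
  let T : Subgroup Γ :=
    { carrier := {g | ∀ h, a.S i h ↔ a.S i (g * h)}
      one_mem' := fun h => by rw [one_mul]
      mul_mem' := fun ha hb h => by rw [mul_assoc, ← ha, ← hb]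
      inv_mem' := fun {g} ha h => by rw [ha (g⁻¹ * h), mul_inv_cancel_left] }
  have k0 : ∀ p ∈ a.P i, ∀ h, a.S i h → a.S i (p * h) := fun p hp h k => by
    simpa using k.mul hp (one_mem _)
  have k : ∀ j A h, a.S i h → a.S i (a.s j A * h) := fun j A h k => by
    by_cases e : j = i
    · exact k0 _ (e ▸ a.sP A) h k
    obtain rfl : j = !i := Bool.eq_not.2 e
    rcases S_s (a := a) (i := i) A with q | ⟨p, hp, q, hq, e⟩
    · exact k0 _ q h k
    · rw [e, mul_assoc, mul_assoc]; exact k0 _ hp _ (k0 _ hq _ k).w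
  have : a.K ≤ T := by
    have : ∀ j A, a.s j A ∈ T := fun j A h => ⟨k _ _ _, fun q => by simpa using k j A⁻¹ _ q⟩
    refine sup_le ?_ ?_ <;> rintro _ ⟨A, rfl⟩ <;> exact this _ A
  simpa using (this hg 1).1 (.inl (one_mem _))

theorem central {Γ' : Type*} [Group Γ'] (π : Γ →* Γ') (hw : ∀ p ∈ a.P true, π p ≠ π (a.s false (W F)))
    (inj : ∀ x y, π (a.z x * a.s false (U y)) = 1 → x = 0 ∧ y = 0) : a.K ≤ 𝒞 (a.K ⊓ π.ker) := by
  have h1 : a.V true ≤ 𝒞 (a.K ⊓ π.ker) := fun v hv => mem_cent.2 fun g hg => by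
    have e : π g = 1 := hg.2
    rcases S_K (i := true) hg.1 with k | ⟨p, hp, q, hq, rfl⟩
    · obtain ⟨x, y, r⟩ := mul_mem (conj_mem_of_norm (a.PV k) hv) (inv_mem hv)
      obtain ⟨rfl, rfl⟩ := inj x y ((congrArg π r.symm).trans (by simp [e]))
      simpa [a.z0, U_zero, mul_inv_eq_iff_eq_mul] using r
    · refine absurd ?_ (hw _ (mul_mem (inv_mem hp) (inv_mem hq)))
      simp only [map_mul, map_inv] at e ⊢
      rw [mul_inv_eq_iff_eq_mul, inv_eq_iff_mul_eq_one, ← mul_assoc]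
      exact e
  have h2 : a.K ≤ 𝒩 (𝒞 (a.K ⊓ π.ker)) :=
    le_norm_cent (le_norm_inf (le_norm _) (by rw [normalizer_eq_top]; exact le_top))
  have h3 : ∀ i A, a.s i A ∈ 𝒞 (a.K ⊓ π.ker) := fun i A => by
    have hU : ∀ t, a.s i (U t) ∈ 𝒞 (a.K ⊓ π.ker) := fun t => by
      have := conj_mem_of_norm (h2 (a.sK (!i) (W F))) (h1 (a.zV t))
      rwa [a.wz, Bool.not_not] at this
    refine sl2_ind (P := fun A => a.s i A ∈ _) hU (fun t => ?_)
      (fun A B h h' => by rw [map_mul]; exact mul_mem h h') A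
    rw [Lo_eq, map_mul, map_mul, map_inv]
    exact conj_mem_of_norm (h2 (a.sK i _)) (hU t)
  refine sup_le ?_ ?_ <;> rintro _ ⟨A, rfl⟩ <;> exact h3 _ A

/-- product of two data -/
def prod {Γ' : Type*} [Group Γ'] (a : A2 F Γ) (b : A2 F Γ') : A2 F (Γ × Γ') where
  s i := (a.s i).prod (b.s i)
  z x := (a.z x, b.z x)
  za x y := Prod.ext (a.za x y) (b.za x y)
  c i A x y := Prod.ext (a.c i A x y) (b.c i A x y)
  d i c := Prod.ext (a.d i c) (b.d i c)
  br := Prod.ext a.br b.br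

end A2

/-- upper left block -/
def e1 (A : SL(2, F)) : SL(3, F) := ⟨!![A.1 0 0, A.1 0 1, 0; A.1 1 0, A.1 1 1, 0; 0, 0, 1], by
  have := A.2; rw [det_fin_two] at this; simpa [det_fin_three] using this⟩

/-- lower right block -/
def e2 (A : SL(2, F)) : SL(3, F) := ⟨!![1, 0, 0; 0, A.1 0 0, A.1 0 1; 0, A.1 1 0, A.1 1 1], by
  have := A.2; rw [det_fin_two] at this; simpa [det_fin_three] using this⟩

/-- the two embeddings -/
def emb (F : Type*) [Field F] : Bool → SL(2, F) →* SL(3, F)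
  | true => MonoidHom.mk' e1 fun A B => by
      ext i j; rw [Matrix.SpecialLinearGroup.coe_mul (e1 A)]
      fin_cases i <;> fin_cases j <;> simp [e1, mul_apply, Fin.sum_univ_succ]
  | false => MonoidHom.mk' e2 fun A B => by
      ext i j; rw [Matrix.SpecialLinearGroup.coe_mul (e2 A)]
      fin_cases i <;> fin_cases j <;> simp [e2, mul_apply, Fin.sum_univ_succ]

theorem emb_t (A : SL(2, F)) :
    (emb F true A).1 = !![A.1 0 0, A.1 0 1, 0; A.1 1 0, A.1 1 1, 0; 0, 0, 1] := rfl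

theorem emb_f (A : SL(2, F)) :
    (emb F false A).1 = !![1, 0, 0; 0, A.1 0 0, A.1 0 1; 0, A.1 1 0, A.1 1 1] := rfl

/-- the long root elements -/
def zz (x : F) : SL(3, F) := ⟨!![1, 0, x; 0, 1, 0; 0, 0, 1], by simp [det_fin_three]⟩

theorem zz_coe (x : F) : (zz x).1 = !![1, 0, x; 0, 1, 0; 0, 0, 1] := rfl

/-- the standard datum -/
def std (F : Type*) [Field F] [Fintype F] [CharP F 2] : A2 F SL(3, F) where
  s := emb F
  z := zz
  za x y := by ext i j; fin_cases i <;> fin_cases j <;> simp [zz_coe, add_comm]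
  c i A x y := by
    have := det2 A
    rw [mul_inv_eq_iff_eq_mul]
    cases i <;> ext i j <;> fin_cases i <;> fin_cases j <;>
      simp [zz_coe, emb_t, emb_f, U_coe] <;> grind
  d i b := by
    rw [mul_inv_eq_iff_eq_mul]
    cases i <;> ext i j <;> fin_cases i <;> fin_cases j <;> simp [emb_t, emb_f, W_coe, dg_coe]
  br := by ext i j; fin_cases i <;> fin_cases j <;> simp [emb_t, emb_f, W_coe]

theorem std_K : (std F).K = ⊤ := by
  refine eq_top_iff.2 fun A _ => AutL.sl_induction (· ∈ (std F).K) (fun i j h c => ?_)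
    (fun _ _ => mul_mem) A
  have k := (std F).sK
  fin_cases i <;> fin_cases j
  any_goals exact absurd rfl h
  · convert k true (U c) using 1
    ext i j; fin_cases i <;> fin_cases j <;>
      simp [SpecialLinearGroup.transvection_coe, std, emb_t, U_coe]
  · convert mul_mem (mul_mem (k true (W F)) (k false (U c))) (k true (W F)) using 1
    ext i j; fin_cases i <;> fin_cases j <;>
      simp [SpecialLinearGroup.transvection_coe, std, emb_t, emb_f, U_coe, W_coe]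
  · convert k true (Lo c) using 1
    ext i j; fin_cases i <;> fin_cases j <;>
      simp [SpecialLinearGroup.transvection_coe, std, emb_t, Lo_coe]
  · convert k false (U c) using 1
    ext i j; fin_cases i <;> fin_cases j <;>
      simp [SpecialLinearGroup.transvection_coe, std, emb_f, U_coe]
  · convert mul_mem (mul_mem (k true (W F)) (k false (Lo c))) (k true (W F)) using 1
    ext i j; fin_cases i <;> fin_cases j <;>
      simp [SpecialLinearGroup.transvection_coe, std, emb_t, emb_f, Lo_coe, W_coe]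
  · convert k false (Lo c) using 1
    ext i j; fin_cases i <;> fin_cases j <;>
      simp [SpecialLinearGroup.transvection_coe, std, emb_f, Lo_coe]

theorem A2.recog {G : Type*} [Group G] [Finite G] (a : A2 F G) (hw : a.s false (W F) ∉ 𝒩 (a.V true))
    (inj : ∀ x y, a.z x * a.s false (U y) = 1 → x = 0 ∧ y = 0) (hC : a.K ⊓ 𝒞 a.K = ⊥) :
    Nonempty (a.K ≃* PSL(3, F)) := by
  let b := a.prod (std F)
  have m1 : b.K.map (MonoidHom.fst _ _) = a.K := by
    simp only [A2.K, Subgroup.map_sup, MonoidHom.map_range]; rfl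
  have m2 : b.K.map (MonoidHom.snd _ _) = ⊤ := by
    rw [← std_K]; simp only [A2.K, Subgroup.map_sup, MonoidHom.map_range]; rfl
  have c1 := A2.central (a := b) (MonoidHom.fst _ _) (fun p hp e => hw (by
    obtain ⟨x, y, A, c, rfl⟩ := b.mem_P hp
    exact a.PV (show a.s false (W F) ∈ _ from e ▸
      mul_mem (mul_mem (a.VP ⟨x, y, rfl⟩) (a.sP A)) (a.dP c)))) inj
  have c2 := A2.central (a := b) (MonoidHom.snd _ _) (fun p hp e => by
    obtain ⟨x, y, A, c, rfl⟩ := b.mem_P hp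
    have : (zz x * emb F false (U y) * emb F true A * emb F false (dg c)).1 2 1 =
      (emb F false (W F)).1 2 1 := congrArg (fun M : SL(3, F) => M.1 2 1) e
    simp [zz_coe, emb_t, emb_f, U_coe, dg_coe, W_coe] at this) fun x y e => by
    have e : zz x * emb F false (U y) = 1 := e
    have e1 := congrArg (fun M : SL(3, F) => M.1 0 2) e
    have e2 := congrArg (fun M : SL(3, F) => M.1 1 2) e
    simp [zz_coe, emb_f, U_coe] at e1 e2
    exact ⟨e1, e2⟩
  have one : ∀ g ∈ a.K, (∀ γ ∈ b.K, γ.1 * g = g * γ.1) → g = 1 := fun g hg h =>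
    eq_one_of_mem hC ⟨hg, mem_cent.2 fun x hx => by
      rw [← m1] at hx; obtain ⟨γ, hγ, rfl⟩ := hx; exact h γ hγ⟩
  have k1 : ∀ γ : b.K, γ.1.1 ∈ a.K := fun γ => m1 ▸ mem_map_of_mem _ γ.2
  let e := MulEquiv.ofBijective ((MonoidHom.snd _ _).comp b.K.subtype) ⟨(injective_iff_map_eq_one _).2
    fun γ h => Subtype.ext (Prod.ext (one _ (k1 γ) fun δ hδ =>
      congrArg Prod.fst (mem_cent.1 (c2 hδ) γ.1 ⟨γ.2, h⟩).symm) h), fun A => by
      obtain ⟨γ, hγ, rfl⟩ : A ∈ b.K.map (MonoidHom.snd _ _) := m2 ▸ mem_top A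
      exact ⟨⟨γ, hγ⟩, rfl⟩⟩
  let θ := ((MonoidHom.fst _ _).comp b.K.subtype).comp e.symm.toMonoidHom
  have r : θ.range = a.K := by
    rw [← m1, MonoidHom.range_comp, MonoidHom.range_eq_top.2 e.symm.surjective,
      ← MonoidHom.range_eq_map, MonoidHom.range_comp, range_subtype]
  have k : θ.ker = center _ := by
    ext A
    obtain ⟨γ, rfl⟩ := e.surjective A
    rw [MonoidHom.mem_ker, mem_center_iff, show θ (e γ) = γ.1.1 by simp [θ]]
    refine ⟨fun h B => ?_, fun h => one _ (k1 γ) fun δ hδ => ?_⟩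
    · obtain ⟨δ, rfl⟩ := e.surjective B
      exact congrArg Prod.snd (mem_cent.1 (c1 δ.2) γ.1 ⟨γ.2, h⟩).symm
    · have := h (e ⟨δ, hδ⟩)
      rw [← map_mul, ← map_mul, e.injective.eq_iff] at this
      exact congrArg (fun x : b.K => x.1.1) this
  exact ⟨(MulEquiv.subgroupCongr r.symm).trans ((QuotientGroup.quotientKerEquivRange θ).symm.trans
    (QuotientGroup.quotientMulEquivOfEq k))⟩

end Cfsg.LT
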