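import Cfsg.Agent.LT.A1

/-! Two natural modules sharing a Sylow subgroup: coordinates. -/

set_option autoImplicit false
set_option linter.unusedSectionVars false

namespace Cfsg.LT

open Subgroup Cfsg.L0 Cfsg.FT Cfsg.H3 Matrix
open scoped MatrixGroups

variable {G : Type*} [Group G] [Finite G] {F : Type*} [Field F] [Fintype F] [CharP F 2]
  {v w : F → F → G} {g g' x y : G} {a b c d a' b' c' d' s t s' t' : F} {L V J L' V' : Subgroup G}

/-- `g` acts as a matrix -/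
def Ac (v : F → F → G) (g : G) (a b c d : F) : Prop :=
  ∀ s t, g * v s t * g⁻¹ = v (a * s + b * t) (c * s + d * t)

theorem Ac.mul (h : Ac v g a b c d) (h' : Ac v g' a' b' c' d') :
    Ac v (g * g') (a * a' + b * c') (a * b' + b * d') (c * a' + d * c') (c * b' + d * d') :=
  fun s t => by
    rw [show g * g' * v s t * (g * g')⁻¹ = g * (g' * v s t * g'⁻¹) * g⁻¹ by group, h', h]
    congr 1 <;> ring

theorem Ac.congr (h : Ac v g a b c d) (e1 : a = a') (e2 : b = b') (e3 : c = c') (e4 : d = d') :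
    Ac v g a' b' c' d' := by subst_vars; exact h

theorem Ac.inv (h : Ac v g a b c d) (e1 : a * a' + b * c' = 1) (e2 : a * b' + b * d' = 0)
    (e3 : c * a' + d * c' = 0) (e4 : c * b' + d * d' = 1) : Ac v g⁻¹ a' b' c' d' := fun s t => by
  rw [show v s t = g * v (a' * s + b' * t) (c' * s + d' * t) * g⁻¹ by
    rw [h]; congr 1
    exacts [by linear_combination -s * e1 - t * e2, by linear_combination -s * e3 - t * e4]]
  group

theorem ac_one : Ac v g 1 0 0 1 ↔ ∀ s t, g * v s t = v s t * g := by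
  simp [Ac, mul_inv_eq_iff_eq_mul]

/-- coordinates of the module -/
structure Md (v : F → F → G) : Prop where
  add : ∀ s t s' t', v (s + s') (t + t') = v s t * v s' t'
  inj : ∀ s t, v s t = 1 → s = 0 ∧ t = 0

theorem Md.zero (h : Md v) : v 0 0 = 1 := by simpa using h.add 0 0 0 0

theorem Md.sq (h : Md v) (s t : F) : v s t * v s t = 1 := by
  rw [← h.add, CharTwo.add_self_eq_zero, CharTwo.add_self_eq_zero, h.zero]

theorem Md.inv (h : Md v) (s t : F) : (v s t)⁻¹ = v s t := inv_eq_of_mul_eq_one_left (h.sq s t)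

theorem Md.eq (h : Md v) (e : v s t = v s' t') : s = s' ∧ t = t' := by
  have := h.inj (s + s') (t + t') (by rw [h.add, e, h.sq])
  exact ⟨CharTwo.add_eq_zero.1 this.1, CharTwo.add_eq_zero.1 this.2⟩

theorem Md.comm (h : Md v) (s t s' t' : F) : v s t * v s' t' = v s' t' * v s t := by
  rw [← h.add, ← h.add, add_comm s, add_comm t]

theorem Md.uniq (h : Md v) (k : Ac v g a b c d) (k' : Ac v g a' b' c' d') :
    a = a' ∧ b = b' ∧ c = c' ∧ d = d' := by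
  have e1 := h.eq ((k 1 0).symm.trans (k' 1 0))
  have e2 := h.eq ((k 0 1).symm.trans (k' 0 1))
  simp only [mul_one, mul_zero, add_zero, zero_add] at e1 e2
  exact ⟨e1.1, e2.1, e1.2, e2.2⟩

/-- one natural module -/
structure Sd (L V J : Subgroup G) (v : F → F → G) : Prop extends Md v where
  memV : ∀ x, x ∈ V ↔ ∃ s t, x = v s t
  VL : V ≤ L
  ex : ∀ g ∈ L, ∃ a b c d, a * d + b * c = 1 ∧ Ac v g a b c d
  sur : ∀ a b c d, a * d + b * c = 1 → ∃ g ∈ L, Ac v g a b c d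
  ker : ∀ g ∈ L, Ac v g 1 0 0 1 → g ∈ V
  memJ : ∀ x, x ∈ J ↔ x ∈ L ∧ ∃ t, Ac v x 1 t 0 1
  syl : H8.IsSyl 2 J L

theorem exists_sd (L : Subgroup G) (φ : L ⧸ pCore 2 L ≃* SL(2, F))
    (ψ : Additive (pCore 2 L) ≃+ (Fin 2 → F))
    (h : ∀ (g : L) (v : pCore 2 L),
      ψ (Additive.ofMul ⟨g * v * g⁻¹, Normal.conj_mem inferInstance (v : L) v.2 g⟩)
        = ((φ (QuotientGroup.mk g) : SL(2, F)) : Matrix (Fin 2) (Fin 2) F) *ᵥ ψ (Additive.ofMul v))
    (S : Sylow 2 L) : ∃ v : F → F → G, Sd L (pCoreOf 2 L) ((S : Subgroup L).map L.subtype) v := by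
  have : Fact (Nat.Prime 2) := ⟨Nat.prime_two⟩
  let ρ := φ.toMonoidHom.comp (QuotientGroup.mk' (pCore 2 L))
  have ρs : Function.Surjective ρ := φ.surjective.comp (QuotientGroup.mk'_surjective _)
  have ρk : ∀ x, ρ x = 1 → x ∈ pCore 2 L := fun x hx => by simpa [ρ] using hx
  obtain ⟨g, hg⟩ := exists_sylow_coord (MulEquiv.refl _) (S.mapSurjective ρs)
  let v : F → F → G := fun s t => ((ψ.symm (g.1 *ᵥ ![s, t])).toMul : L)
  have md : Md v := ⟨fun s t s' t' => by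
    simp only [v]
    rw [show ![s + s', t + t'] = ![s, t] + ![s', t'] by simp, mulVec_add, map_add, toMul_add]; rfl,
    fun s t e => by
      have : (ψ.symm (g.1 *ᵥ ![s, t])).toMul = 1 := Subtype.ext (Subtype.ext e)
      have : ![s, t] = 0 := by_contra fun n => mulVec_ne_zero g n (by simpa using this)
      exact ⟨congrFun this 0, congrFun this 1⟩⟩
  have key : ∀ (x : L) (B : SL(2, F)), ρ x = g * B * g⁻¹ →
      Ac v x (B.1 0 0) (B.1 0 1) (B.1 1 0) (B.1 1 1) := fun x B e s t => by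
    have := h x (ψ.symm (g.1 *ᵥ ![s, t])).toMul
    rw [show φ (QuotientGroup.mk x) = g * B * g⁻¹ from e, ofMul_toMul, ψ.apply_symm_apply,
      ← AddEquiv.eq_symm_apply] at this
    have e2 : (g * B * g⁻¹).1 *ᵥ g.1 *ᵥ ![s, t] =
        g.1 *ᵥ ![B.1 0 0 * s + B.1 0 1 * t, B.1 1 0 * s + B.1 1 1 * t] := by
      rw [mulVec_mulVec, ← Matrix.SpecialLinearGroup.coe_mul, inv_mul_cancel_right,
        Matrix.SpecialLinearGroup.coe_mul, ← mulVec_mulVec]
      congr 1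
      ext i; fin_cases i <;> simp [mulVec, dotProduct]
    rw [e2] at this
    exact congrArg (fun y : Additive (pCore 2 L) => ((y.toMul : L) : G)) this
  have k2 := fun x : L => key x (g⁻¹ * ρ x * g) (by group)
  have k3 : ∀ (x : L) t, Ac v x 1 t 0 1 → ρ x = g * U t * g⁻¹ := fun x t e => by
    obtain ⟨e1, e2, e3, e4⟩ := md.uniq (k2 x) e
    rw [show U t = g⁻¹ * ρ x * g from Subtype.ext (by
      rw [eta_fin_two (g⁻¹ * ρ x * g).1, e1, e2, e3, e4, U_coe])]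
    group
  refine ⟨v, md, fun x => ⟨?_, ?_⟩, H7.pCoreOf_le _ _, fun x hx => ⟨_, _, _, _, ?_, k2 ⟨x, hx⟩⟩,
    fun a b c d e => ?_, fun x hx e => ⟨⟨x, hx⟩, ρk _ (by simpa [U_zero] using k3 ⟨x, hx⟩ 0 e), rfl⟩,
    fun x => ⟨?_, fun ⟨hx, t, e⟩ => ?_⟩, H8.isSyl_map_subtype S⟩
  · rintro ⟨x, hx, rfl⟩
    refine ⟨(g⁻¹.1 *ᵥ ψ (.ofMul ⟨x, hx⟩)) 0, (g⁻¹.1 *ᵥ ψ (.ofMul ⟨x, hx⟩)) 1, ?_⟩
    simp only [v, vec_eta]
    rw [mulVec_mulVec, ← Matrix.SpecialLinearGroup.coe_mul, mul_inv_cancel,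
      Matrix.SpecialLinearGroup.coe_one, one_mulVec, AddEquiv.symm_apply_apply]; rfl
  · rintro ⟨s, t, rfl⟩
    exact ⟨_, SetLike.coe_mem _, rfl⟩
  · have := (g⁻¹ * ρ ⟨x, hx⟩ * g).2
    rw [det_fin_two] at this; grind
  · obtain ⟨x, hx⟩ := ρs (g * mkSL a b c d (by grind) * g⁻¹)
    exact ⟨x, x.2, by simpa [mkSL_coe] using key x _ hx⟩
  · rintro ⟨x, hx, rfl⟩
    obtain ⟨b, e⟩ := (hg _).1 (mem_map_of_mem ρ hx)
    exact ⟨x.2, b, by simpa [U_coe] using key x (U b) e.symm⟩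
  · obtain ⟨y, hy, e'⟩ := (hg _).2 ⟨t, (k3 ⟨x, hx⟩ t e).symm⟩
    refine ⟨⟨x, hx⟩, ?_, rfl⟩
    have := H7.pCore_le_sylow S (ρk (y⁻¹ * ⟨x, hx⟩) (by rw [map_mul, map_inv, e', inv_mul_cancel]))
    exact (mul_mem_cancel_left (inv_mem hy)).1 this

theorem Sd.tr (h : Sd L V J v) (σ : F ≃+* F) {k m : F} (hk : k ≠ 0) (hm : m ≠ 0) :
    Sd L V J (fun s t => v (k * σ s) (m * σ t)) ∧ ∀ g a b c d,
      Ac (fun s t => v (k * σ s) (m * σ t)) g a b c d ↔
        Ac v g (σ a) (k * σ b / m) (m * σ c / k) (σ d) := by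
  have key : ∀ g a b c d, Ac (fun s t => v (k * σ s) (m * σ t)) g a b c d ↔
      Ac v g (σ a) (k * σ b / m) (m * σ c / k) (σ d) := fun g a b c d => by
    refine ⟨fun e s t => ?_, fun e s t => (e _ _).trans ?_⟩
    · have := e (σ.symm (s / k)) (σ.symm (t / m))
      simp only [map_add, map_mul, RingEquiv.apply_symm_apply, mul_div_cancel₀ _ hk,
        mul_div_cancel₀ _ hm] at this
      rw [this]; congr 1 <;> field_simp
    · simp only [map_add, map_mul]; congr 1 <;> field_simp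
  refine ⟨⟨⟨fun s t s' t' => by simp only [map_add, mul_add, h.add], fun s t e => by
    simpa [hk, hm] using h.inj _ _ e⟩, fun x => (h.memV x).trans ⟨?_, fun ⟨_, _, e⟩ => ⟨_, _, e⟩⟩,
    h.VL, fun g hg => ?_, fun a b c d e => ?_, fun g hg e => h.ker g hg (by simpa using (key _ _ _ _ _).1 e),
    fun x => (h.memJ x).trans (and_congr_right fun _ => ⟨fun ⟨t, e⟩ => ⟨σ.symm (m * t / k), ?_⟩,
      fun ⟨t, e⟩ => ⟨_, by simpa using (key _ _ _ _ _).1 e⟩⟩), h.syl⟩, key⟩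
  · rintro ⟨s, t, rfl⟩
    exact ⟨σ.symm (s / k), σ.symm (t / m), by simp [mul_div_cancel₀, hk, hm]⟩
  · obtain ⟨a, b, c, d, e, ha⟩ := h.ex g hg
    refine ⟨σ.symm a, σ.symm (m * b / k), σ.symm (k * c / m), σ.symm d, ?_, (key _ _ _ _ _).2
      (ha.congr ?_ ?_ ?_ ?_)⟩
    · rw [← map_mul, ← map_mul, ← map_add, ← map_one σ.symm, ← e]; congr 2; field_simp
    all_goals simp only [RingEquiv.apply_symm_apply]
    all_goals field_simp
  · obtain ⟨g, hg, ha⟩ := h.sur (σ a) (k * σ b / m) (m * σ c / k) (σ d) (by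
      rw [← map_one σ, ← e, map_add, map_mul, map_mul]; field_simp)
    exact ⟨g, hg, (key _ _ _ _ _).2 ha⟩
  · refine (key _ _ _ _ _).2 (e.congr ?_ ?_ ?_ ?_) <;> simp [mul_div_cancel₀, hk, hm]

namespace Sd

theorem mem (h : Sd L V J v) (s t : F) : v s t ∈ V := (h.memV _).2 ⟨s, t, rfl⟩

theorem LV (h : Sd L V J v) : L ≤ 𝒩 V := fun g hg => H8.mem_normalizer_of_forall fun x hx => by
  obtain ⟨s, t, rfl⟩ := (h.memV x).1 hx
  obtain ⟨a, b, c, d, -, e⟩ := h.ex g hg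
  exact e s t ▸ h.mem _ _

theorem ac_iff (h : Sd L V J v) : Ac v g 1 0 0 1 ↔ g ∈ 𝒞 V := by
  rw [ac_one, mem_cent]
  exact ⟨fun k x hx => by obtain ⟨s, t, rfl⟩ := (h.memV x).1 hx; exact (k s t).symm,
    fun k s t => (k _ (h.mem s t)).symm⟩

theorem abel (h : Sd L V J v) : V ≤ 𝒞 V := fun x hx => by
  obtain ⟨s, t, rfl⟩ := (h.memV x).1 hx
  exact h.ac_iff.1 (ac_one.2 fun _ _ => h.comm _ _ _ _)

theorem JL (h : Sd L V J v) : J ≤ L := h.syl.le

theorem exJ (h : Sd L V J v) (t : F) : ∃ x ∈ J, Ac v x 1 t 0 1 := by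
  obtain ⟨x, hx, e⟩ := h.sur 1 t 0 1 (by simp)
  exact ⟨x, (h.memJ x).2 ⟨hx, t, e⟩, e⟩

theorem cm (h : Sd L V J v) (e : Ac v x 1 b 0 1) (s t : F) :
    x * v s t * x⁻¹ * v s t = v (b * t) 0 := by
  rw [e, ← h.add]; congr 1 <;> grind

theorem zz (h : Sd L V J v) (h' : Sd L' V' J w) (hJ : J = V ⊔ V') (s : F) : ∃ r, v s 0 = w r 0 := by
  have n : ∀ {L V L' V' : Subgroup G} {v w : F → F → G}, Sd L V J v → Sd L' V' J w → J = V ⊔ V' →
      ∀ t, ∃ x ∈ V', Ac v x 1 t 0 1 := fun h h' hJ t => by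
    obtain ⟨u, hu, e⟩ := h.exJ t
    obtain ⟨y, hy, x, hx, rfl⟩ := (mem_sup_l ((hJ ▸ le_sup_right).trans (h.JL.trans h.LV))).1 (hJ ▸ hu)
    refine ⟨x, hx, ?_⟩
    simpa using (h.ac_iff.2 (h.abel (inv_mem hy))).mul e
  obtain ⟨x, hx, e⟩ := n h h' hJ s
  have k : v s 0 ∈ V' := by
    have := h.cm e 0 1
    rw [mul_one, ← h.inv 0 1] at this
    nth_rewrite 1 [h.inv] at this
    rw [← this, mul_assoc, mul_assoc, ← mul_assoc (v 0 1)]
    exact mul_mem hx (conj_mem_of_norm (h'.LV (h'.JL (hJ ▸ mem_sup_left (h.mem _ _)))) (inv_mem hx))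
  obtain ⟨r, u, e1⟩ := (h'.memV _).1 k
  obtain ⟨y, hy, e2⟩ := n h' h (hJ.trans (sup_comm _ _)) 1
  have := h'.cm e2 r u
  rw [← e1, ← mem_cent.1 (h.abel hy) _ (h.mem _ _), mul_inv_cancel_right, h.sq, one_mul] at this
  exact ⟨r, by rw [e1, (h'.inj _ _ this.symm).1]⟩

theorem norm (h : Sd L V J v) (h' : Sd L' V' J w) (hJ : J = V ⊔ V') : ∃ w : F → F → G,
    Sd L' V' J w ∧ (∀ s, w s 0 = v s 0) ∧ (∀ s t, Ac v (w s t) 1 t 0 1) ∧
      ∀ s t, Ac w (v s t) 1 t 0 1 := by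
  have hJ' := hJ.trans (sup_comm _ _)
  have sp : ∀ {L V L' V' : Subgroup G} {v w : F → F → G}, Sd L V J v → Sd L' V' J w → J = V ⊔ V' →
      ∀ s t r, Ac v (w 0 t) 1 r 0 1 ↔ Ac v (w s t) 1 r 0 1 := fun {_ _ _ _ v w} h h' hJ s t r => by
    have key : ∀ s s', Ac v (w s t) 1 r 0 1 → Ac v (w s' t) 1 r 0 1 := fun s s' e => by
      obtain ⟨u, k⟩ := h'.zz h (hJ.trans (sup_comm _ _)) (s + s')
      have := (h.ac_iff.2 (h.abel (h.mem u 0))).mul e
      rw [← k, ← h'.add, show s + s' + s = s' by grind] at this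
      simpa using this
    exact ⟨key _ _, key _ _⟩
  choose γ hγ using h.zz h' hJ
  have : ∀ t, ∃ r, Ac w (v 0 t) 1 r 0 1 := fun t =>
    ((h'.memJ _).1 (hJ ▸ mem_sup_left (h.mem _ _))).2
  choose α hα using this
  have : ∀ u, ∃ r, Ac v (w 0 r) 1 u 0 1 := fun u => by
    obtain ⟨p, hp, e⟩ := h.exJ u
    obtain ⟨y, hy, x, hx, rfl⟩ := (mem_sup_l ((hJ ▸ le_sup_right).trans (h.JL.trans h.LV))).1 (hJ ▸ hp)
    obtain ⟨s, r, rfl⟩ := (h'.memV _).1 hx
    exact ⟨r, (sp h h' hJ s r u).2 (by simpa using (h.ac_iff.2 (h.abel (inv_mem hy))).mul e)⟩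
  choose β hβ using this
  obtain ⟨σ, a, b, a0, b0, e1, e2, e3⟩ := isot (γ := γ) (α := α) (β := β) (fun x y => by
      have := h.add x 0 y 0
      rw [add_zero, hγ, hγ, hγ, ← h'.add] at this
      exact (h'.eq this).1) (fun x e => (h.inj _ _ (by rw [hγ, e, h'.zero])).1) fun x y => by
      have k1 := h.cm (hβ y) 0 x
      have k2 := h'.cm (hα x) 0 (β y)
      rw [mul_comm y, hγ, h'.inv] at k1
      rw [h.inv] at k2
      refine (h'.eq (show w _ 0 = w _ 0 from ?_)).1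
      rw [← h'.inv _ 0, ← k1, ← k2]
      simp only [_root_.mul_inv_rev, h.inv, h'.inv, mul_assoc]
  obtain ⟨k1, k2⟩ := h'.tr σ (mul_ne_zero a0 b0) b0
  refine ⟨_, k1, fun s => by simp [hγ, e3], fun s t => (sp h h' hJ _ _ _).1 (e2 t ▸ hβ t),
    fun s t => (k2 _ _ _ _ _).2 (((sp h' h hJ' s t _).1 (hα t)).congr ?_ ?_ ?_ ?_)⟩ <;> simp [e1]
  field_simp

end Sd

end Cfsg.LT
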