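import Cfsg.Agent.LT.B1
import Cfsg.Agent.LT.A2

/-! The configuration; the action of the normalizer of `J`. -/

set_option autoImplicit false
set_option linter.unusedSectionVars false

namespace Cfsg.LT

open Subgroup Cfsg.L0 Cfsg.FT Cfsg.H3

/-- the configuration -/
structure Cf (F G : Type*) [Field F] [Fintype F] [Group G] where
  L : Bool → Subgroup G
  V : Bool → Subgroup G
  J : Subgroup G
  v : Bool → F → F → G
  sd : ∀ i, Sd (L i) (V i) J (v i)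
  vz : ∀ s, v false s 0 = v true s 0
  cr : ∀ i s t, Ac (v i) (v (!i) s t) 1 t 0 1
  VJ : ∀ i, V i ≤ J
  NL : ∀ i, 𝒩 (V i) = 𝒩 (L i)
  ch : ∀ T : Subgroup G, IsPGroup 2 T → T ≠ ⊥ → 𝒩 T ⊓ 𝒞 (pCoreOf 2 (𝒩 T)) ≤ pCoreOf 2 (𝒩 T)
  h2 : 2 < Fintype.card F

variable {G : Type*} [Group G] [Finite G] {F : Type*} [Field F] [Fintype F] [CharP F 2]

theorem mem_norm_closure {S : Set G} {g : G} (h : ∀ x ∈ S, g * x * g⁻¹ ∈ S) : g ∈ 𝒩 (closure S) :=
  mem_norm_of_cj_le (by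
    rw [cj, MonoidHom.map_closure]
    exact closure_mono (by rintro _ ⟨x, hx, rfl⟩; exact h x hx))

namespace Cf

variable (C : Cf F G) {i j ε ε' : Bool} {g g' x y : G} {s t s' t' a b c d : F} {σ τ : F ≃+* F}
  {m m' : Bool → F} {A P : Subgroup G}

/-- the centre of `J` -/
def z (s : F) : G := C.v true s 0

/-- the centre of `J` -/
def Z : Subgroup G := C.V true ⊓ C.V false

theorem md (i : Bool) : Md (C.v i) := (C.sd i).toMd

theorem v0 (i : Bool) (s : F) : C.v i s 0 = C.z s := by cases i; exacts [C.vz s, rfl]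

theorem vm (i : Bool) (s t : F) : C.v i s t ∈ C.V i := (C.sd i).mem s t

theorem vJ (i : Bool) (s t : F) : C.v i s t ∈ C.J := C.VJ i (C.vm i s t)

theorem za (s t : F) : C.z (s + t) = C.z s * C.z t := by simpa [z] using (C.md true).add s 0 t 0

theorem z0 : C.z 0 = 1 := (C.md true).zero

theorem zsq (s : F) : C.z s * C.z s = 1 := (C.md true).sq s 0

theorem zinj (h : C.z s = C.z t) : s = t := ((C.md true).eq h).1

theorem zne (h : s ≠ 0) : C.z s ≠ 1 := fun e => h ((C.md true).inj _ _ e).1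

theorem zv (i : Bool) (s s' t : F) : C.z s * C.v i s' t = C.v i (s + s') t := by
  rw [← C.v0 i, ← (C.md i).add, zero_add]

theorem ZV (i : Bool) : C.Z ≤ C.V i := by cases i; exacts [inf_le_right, inf_le_left]

theorem zV (i : Bool) (s : F) : C.z s ∈ C.V i := C.v0 i s ▸ C.vm i s 0

theorem zZ (s : F) : C.z s ∈ C.Z := ⟨C.zV true s, C.zV false s⟩

theorem ZJ : C.Z ≤ C.J := (C.ZV true).trans (C.VJ true)

theorem pJ : IsPGroup 2 C.J := (C.sd true).syl.isPGroup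

theorem JL (i : Bool) : C.J ≤ C.L i := (C.sd i).JL

theorem LV (i : Bool) : C.L i ≤ 𝒩 (C.V i) := (C.sd i).LV

variable {C}

theorem of_other (h : C.v (!i) s t ∈ 𝒞 (C.V i)) : t = 0 :=
  ((C.md i).uniq (C.cr i s t) ((C.sd i).ac_iff.2 h)).2.1

theorem of_other' (h : C.v i s t ∈ 𝒞 (C.V (!i))) : t = 0 := by
  rw [← Bool.not_not i] at h; rw [Bool.not_not (!i)] at h; exact of_other h

theorem mem_Z : x ∈ C.Z ↔ ∃ s, x = C.z s := by
  refine ⟨fun h => ?_, fun ⟨s, e⟩ => e ▸ C.zZ s⟩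
  obtain ⟨s, t, rfl⟩ := ((C.sd true).memV _).1 h.1
  obtain rfl := of_other' (i := true) ((C.sd false).abel h.2)
  exact ⟨s, rfl⟩

theorem mem_Z' (h : x ∈ C.V i) (h' : x ∈ C.V (!i)) : x ∈ C.Z := by
  cases i; exacts [⟨h', h⟩, ⟨h, h'⟩]

theorem J_dec (i : Bool) (h : x ∈ C.J) : ∃ s t r, x = C.v i s t * C.v (!i) 0 r := by
  obtain ⟨h1, r, e⟩ := ((C.sd i).memJ x).1 h
  obtain ⟨s, t, k⟩ := ((C.sd i).memV _).1 ((C.sd i).ker _ (mul_mem h1 (C.JL i (C.vJ (!i) 0 r)))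
    ((e.mul (C.cr i 0 r)).congr (by ring) (by grind) (by ring) (by ring)))
  exact ⟨s, t, r, by rw [← k, mul_assoc, (C.md _).sq, mul_one]⟩

theorem J_le (h : ∀ i, C.V i ≤ A) : C.J ≤ A := fun x hx => by
  obtain ⟨s, t, r, rfl⟩ := J_dec true hx
  exact mul_mem (h _ (C.vm _ _ _)) (h _ (C.vm _ _ _))

theorem Jz (h : x ∈ C.J) (s : F) : x * C.z s * x⁻¹ = C.z s := by
  obtain ⟨-, r, e⟩ := ((C.sd true).memJ x).1 h
  simpa [z] using e s 0

variable (C) in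
theorem JZ : C.J ≤ 𝒞 C.Z := fun x hx => mem_cent.2 fun y hy => by
  obtain ⟨s, rfl⟩ := mem_Z.1 hy
  exact (mul_inv_eq_iff_eq_mul.1 (Jz hx s)).symm

theorem mem_J (h : x ∈ C.L i) (hs : s ≠ 0) (e : x * C.z s * x⁻¹ = C.z s) : x ∈ C.J := by
  obtain ⟨a, b, c, d, k, h1⟩ := (C.sd i).ex x h
  have := (C.md i).eq ((h1 s 0).symm.trans (by rw [C.v0, e, ← C.v0 i]))
  exact ((C.sd i).memJ x).2 ⟨h, b, h1.congr (by grind) rfl (by grind) (by grind)⟩

theorem NV (h : g ∈ 𝒩 (C.V i)) (hs : s ≠ 0) (e : g * C.z s * g⁻¹ ∈ C.Z) : g ∈ 𝒩 C.J := by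
  obtain ⟨t, e⟩ := mem_Z.1 e
  refine H8.mem_normalizer_of_forall fun x hx => mem_J (s := t)
    (conj_mem_of_norm (C.NL i ▸ h) (C.JL i hx)) (fun k => C.zne hs ?_) ?_
  · rwa [k, C.z0, conj_eq_one_iff] at e
  · rw [← e]; nth_rewrite 2 [← Jz hx s]; group

variable (C) in
theorem cm (i : Bool) (s t s' r : F) :
    C.v (!i) s' r * C.v i s t * (C.v (!i) s' r)⁻¹ * C.v i s t = C.z (r * t) := by
  rw [(C.sd i).cm (C.cr i s' r), C.v0]

variable (C) in
theorem sqJ (i : Bool) (s t s' r : F) :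
    C.v i s t * C.v (!i) s' r * (C.v i s t * C.v (!i) s' r) = C.z (r * t) := by
  rw [← Jz (C.vJ i s t), ← C.cm i s t s' r, (C.md _).inv, (C.md _).inv, mul_assoc _ _ (C.v i s t),
    mul_assoc _ (C.v i s t), (C.md _).sq]
  group

theorem inv_mem_V (h : x ∈ C.J) (e : x * x = 1) : ∃ i, x ∈ C.V i := by
  obtain ⟨s, t, r, rfl⟩ := J_dec true h
  rw [C.sqJ, ← C.z0] at e
  rcases mul_eq_zero.1 (C.zinj e) with rfl | rfl
  · exact ⟨true, by rw [(C.md _).zero, mul_one]; exact C.vm _ _ _⟩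
  · exact ⟨false, mul_mem (C.zV _ _) (C.vm _ _ _)⟩

theorem le_V (h : A ≤ C.J) (e : ∀ x ∈ A, x * x = 1) : ∃ i, A ≤ C.V i := by
  by_contra n
  push Not at n
  obtain ⟨x, hx, x1⟩ := SetLike.not_le_iff_exists.1 (n true)
  obtain ⟨y, hy, y1⟩ := SetLike.not_le_iff_exists.1 (n false)
  obtain ⟨i, hi⟩ := inv_mem_V (h hx) (e x hx)
  obtain ⟨j, hj⟩ := inv_mem_V (h hy) (e y hy)
  obtain ⟨k, hk⟩ := inv_mem_V (h (mul_mem hx hy)) (e _ (mul_mem hx hy))
  cases i <;> cases j <;> cases k <;> try contradiction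
  exacts [y1 ((mul_mem_cancel_left hi).1 hk), x1 ((mul_mem_cancel_right hj).1 hk)]

variable (C) in
theorem card_V (i : Bool) : ♯(C.V i) = Fintype.card F * Fintype.card F := by
  rw [← Nat.card_eq_fintype_card, ← Nat.card_prod]
  refine (Nat.card_eq_of_bijective (fun p : F × F => (⟨_, C.vm i p.1 p.2⟩ : C.V i)) ⟨fun p q e => ?_,
    fun ⟨x, hx⟩ => ?_⟩).symm
  · have := (C.md i).eq (congrArg Subtype.val e); exact Prod.ext this.1 this.2
  · obtain ⟨s, t, rfl⟩ := ((C.sd i).memV x).1 hx; exact ⟨(s, t), rfl⟩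

theorem vsq (h : x ∈ C.V i) : x * x = 1 := by
  obtain ⟨s, t, rfl⟩ := ((C.sd i).memV x).1 h; exact (C.md i).sq s t

theorem cj_V (h : cj g (C.V i) ≤ C.J) : ∃ j, cj g (C.V i) = C.V j := by
  obtain ⟨j, hj⟩ := le_V h fun x hx => by
    have := vsq (mem_cj.1 hx)
    rwa [show g⁻¹ * x * g * (g⁻¹ * x * g) = g⁻¹ * (x * x) * g⁻¹⁻¹ by group, conj_eq_one_iff] at this
  exact ⟨j, eq_of_card_le hj (by rw [card_cj, C.card_V, C.card_V])⟩

theorem V_ne (h : C.V i ≤ C.V (!i)) : False :=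
  one_ne_zero (of_other' ((C.sd _).abel (h (C.vm i 0 1))))

theorem V_inj (h : C.V i = C.V j) : i = j := by_contra fun n => by
  obtain rfl := Bool.eq_not.2 n
  exact V_ne h.ge

theorem NJ_of (h : ∀ i, ∃ j, cj g (C.V i) = C.V j) : g ∈ 𝒩 C.J :=
  mem_norm_of_cj_le ((cj_le_iff _).2 (J_le fun i => (cj_le_iff _).1 (by
    obtain ⟨j, e⟩ := h i; exact e ▸ C.VJ j)))

theorem ex_eps (h : g ∈ 𝒩 C.J) : ∃ ε, ∀ i, cj g (C.V i) = C.V (xor i ε) := by
  choose f hf using fun i => cj_V (cj_le_of_le (C.VJ i) h)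
  have : f true ≠ f false := fun e => by
    have := hf true
    rw [e, ← hf, cj_inj] at this
    exact absurd (V_inj this) (by decide)
  refine ⟨f false, fun i => ?_⟩
  cases i
  · simpa using hf false
  · rw [hf, Bool.eq_not.2 this, Bool.true_xor]

theorem NJZ : 𝒩 C.J ≤ 𝒩 C.Z := fun g h => by
  obtain ⟨ε, e⟩ := ex_eps h
  rw [← cj_eq_iff, Z, cj_inf, e, e]
  cases ε; exacts [rfl, inf_comm _ _]

variable (C) in
/-- the action of an element normalizing `J` -/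
structure Dt (g : G) (ε : Bool) (σ : F ≃+* F) (m : Bool → F) : Prop where
  mem : g ∈ 𝒩 C.J
  ne : ∀ i, m i ≠ 0
  act : ∀ i s t, ∃ k, g * C.v i s t * g⁻¹ = C.v (xor i ε) k (m i * σ t)
  az : ∀ s, g * C.z s * g⁻¹ = C.z (m true * m false * σ s)

theorem ex_dt (h : g ∈ 𝒩 C.J) : ∃ ε σ m, C.Dt g ε σ m := by
  obtain ⟨ε, e⟩ := ex_eps h
  choose γ hγ using fun s => mem_Z.1 (conj_mem_of_norm (NJZ h) (C.zZ s))
  choose k μ hμ using fun i t => ((C.sd _).memV _).1 (e i ▸ conj_mem_cj (g := g) (C.vm i 0 t))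
  obtain ⟨σ, a, b, a0, b0, e1, e2, e3⟩ := isot (γ := γ) (α := μ false) (β := μ true)
    (fun x y => C.zinj (by rw [C.za, ← hγ, ← hγ, ← hγ, C.za]; group))
    (fun x q => C.zinj (by rw [C.z0, ← conj_eq_one_iff (a := g), hγ, q, C.z0])) fun x y => C.zinj (by
      rw [← hγ, ← C.cm true 0 y 0 x, ← C.cm (xor true ε) (k true y) _ (k false x), ← hμ,
        show (!(xor true ε)) = xor false ε by cases ε <;> rfl, ← hμ, Bool.not_true]
      group)
  refine ⟨ε, σ, fun i => cond i b a, h, fun i => by cases i <;> assumption, fun i s t => ?_,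
    fun s => by rw [hγ, e3, mul_comm a]; rfl⟩
  refine ⟨γ s + k i t, ?_⟩
  rw [show cond i b a * σ t = μ i t by cases i; exacts [(e1 t).symm, (e2 t).symm], ← C.zv, ← hγ, ← hμ,
    ← add_zero s, ← C.zv, add_zero]
  group

theorem Dt.mul (h : C.Dt g ε σ m) (h' : C.Dt g' ε' τ m') :
    C.Dt (g * g') (xor ε' ε) (τ.trans σ) fun i => m (xor i ε') * σ (m' i) := by
  refine ⟨mul_mem h.mem h'.mem, fun i => mul_ne_zero (h.ne _) (by simpa using h'.ne i),
    fun i s t => ?_, fun s => ?_⟩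
  · obtain ⟨k, e⟩ := h'.act i s t
    obtain ⟨k', e'⟩ := h.act (xor i ε') k (m' i * τ t)
    refine ⟨k', ?_⟩
    rw [← Bool.xor_assoc, RingEquiv.trans_apply, mul_assoc (m _), ← map_mul, ← e', ← e]; group
  · rw [show g * g' * C.z s * (g * g')⁻¹ = g * (g' * C.z s * g'⁻¹) * g⁻¹ by group, h'.az, h.az]
    cases ε' <;> simp <;> ring_nf

theorem Dt.cj (h : C.Dt g ε σ m) (i : Bool) : cj g (C.V i) = C.V (xor i ε) := by
  refine eq_of_card_le ?_ (by rw [card_cj, C.card_V, C.card_V])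
  rintro _ ⟨x, hx, rfl⟩
  obtain ⟨s, t, rfl⟩ := ((C.sd i).memV x).1 hx
  obtain ⟨k, e⟩ := h.act i s t
  exact (show _ = (MulAut.conj g).toMonoidHom _ from e.symm) ▸ C.vm _ _ _

theorem Dt.eps (h : C.Dt g ε σ m) (h' : g ∈ 𝒩 (C.V i)) : ε = false := by
  have := V_inj ((h.cj i).symm.trans (cj_eq_iff.2 h'))
  cases ε; exacts [rfl, by simp at this]

theorem Dt.nv (h : C.Dt g false σ m) (i : Bool) : g ∈ 𝒩 (C.V i) := cj_eq_iff.1 (by simpa using h.cj i)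

theorem Dt.uniq (h : C.Dt g ε σ m) (h' : C.Dt g ε' τ m') :
    ε = ε' ∧ (∀ i, m i = m' i) ∧ ∀ t, σ t = τ t := by
  obtain rfl : ε = ε' := by simpa using V_inj ((h.cj false).symm.trans (h'.cj false))
  have k : ∀ i t, m i * σ t = m' i * τ t := fun i t => by
    obtain ⟨k, e⟩ := h.act i 0 t
    obtain ⟨k', e'⟩ := h'.act i 0 t
    exact ((C.md _).eq (e.symm.trans e')).2
  have k1 : ∀ i, m i = m' i := fun i => by simpa using k i 1
  exact ⟨rfl, k1, fun t => mul_left_cancel₀ (h.ne true) ((k true t).trans (by rw [k1]))⟩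

theorem dt_J (h : x ∈ C.J) : C.Dt x false (RingEquiv.refl F) fun _ => 1 := by
  refine ⟨le_norm _ h, fun _ => one_ne_zero, fun i s t => ?_, fun s => by simpa using Jz h s⟩
  obtain ⟨-, r, e⟩ := ((C.sd i).memJ x).1 h
  exact ⟨_, by simpa using e s t⟩

theorem Dt.lin (h : C.Dt g false σ m) (hσ : ∀ t, σ t = t) (i : Bool) :
    ∃ k, Ac (C.v i) g (m true * m false) k 0 (m i) := by
  choose φ hφ using h.act i 0
  simp only [Bool.xor_false, hσ] at hφ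
  suffices ∀ t, φ t = φ 1 * t from ⟨φ 1, fun s t => by
    rw [zero_mul, zero_add, ← this, ← C.zv, ← hφ, ← hσ s, ← h.az, hσ, ← add_zero s, ← C.zv, add_zero]
    group⟩
  obtain ⟨x, hx, e⟩ := (C.sd i).sur 1 0 1 1 (by simp)
  obtain ⟨a, b, c, d, k, e'⟩ := (C.sd i).ex _ (conj_mem_of_norm (C.NL i ▸ h.nv i) hx)
  have q : ∀ t, a * φ t + b * (m i * t) = φ t ∧ c * φ t + d * (m i * t) = m i * t := fun t =>
    (C.md i).eq (by
      rw [← e', ← hφ]; nth_rewrite 2 [show C.v i 0 t = x * C.v i 0 t * x⁻¹ by simpa using (e 0 t).symm]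
      group)
  have n := h.ne i
  intro t
  have q1 := q 1
  have qt := q t
  by_cases a1 : a = 1
  · by_cases c0 : c = 0
    · have := conj_mem_of_norm' (norm_le_norm_cent _ (h.nv i))
        ((C.sd i).ac_iff.1 (e'.congr a1 (by grind) c0 (by grind)))
      rw [show g⁻¹ * (g * x * g⁻¹) * g = x by group] at this
      exact absurd ((C.md i).uniq e ((C.sd i).ac_iff.2 this)).2.2.1 one_ne_zero
    · grind
  · grind

theorem Dt.pow (h : C.Dt g false σ m) (hσ : ∀ t, σ t = t) (n : ℕ) :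
    ∃ τ, C.Dt (g ^ n) false τ fun i => m i ^ n := by
  induction n with
  | zero => exact ⟨_, by simpa using dt_J (one_mem C.J)⟩
  | succ n ih =>
    obtain ⟨τ, k⟩ := ih
    exact ⟨_, by simpa [hσ, pow_succ'] using h.mul k⟩

theorem trans (i : Bool) (h : x ∈ C.V i) (h1 : x ≠ 1) : ∃ l ∈ C.L i, x = l * C.z 1 * l⁻¹ := by
  obtain ⟨s, t, rfl⟩ := ((C.sd i).memV x).1 h
  obtain ⟨b, d, e⟩ : ∃ b d, s * d + b * t = 1 := by
    by_cases s0 : s = 0
    · exact ⟨t⁻¹, 0, by simpa using inv_mul_cancel₀ fun t0 => h1 (by rw [s0, t0, (C.md i).zero])⟩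
    · exact ⟨0, s⁻¹, by simpa using mul_inv_cancel₀ s0⟩
  obtain ⟨l, hl, k⟩ := (C.sd i).sur s b t d e
  exact ⟨l, hl, by simpa [C.v0] using (k 1 0).symm⟩

theorem L_le (h : C.J ≤ A) (h' : ∀ t, ∃ y ∈ A, y ∈ C.L i ∧ Ac (C.v i) y 1 0 t 1) : C.L i ≤ A := by
  have : ∀ B : Matrix.SpecialLinearGroup (Fin 2) F, ∃ y ∈ A, y ∈ C.L i ∧
      Ac (C.v i) y (B.1 0 0) (B.1 0 1) (B.1 1 0) (B.1 1 1) := by
    refine sl2_ind (fun t => ⟨_, h (C.vJ _ 0 t), C.JL i (C.vJ _ 0 t), C.cr i 0 t⟩) h' ?_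
    rintro B B' ⟨y, h1, h2, h3⟩ ⟨y', h1', h2', h3'⟩
    exact ⟨_, mul_mem h1 h1', mul_mem h2 h2', by
      simpa [Matrix.mul_apply, Fin.sum_univ_two] using h3.mul h3'⟩
  intro g hg
  obtain ⟨a, b, c, d, e, k⟩ := (C.sd i).ex g hg
  obtain ⟨y, h1, h2, h3⟩ := this (mkSL d b c a (by grind))
  refine (mul_mem_cancel_right h1).1 (h (C.VJ i ((C.sd i).ker _ (mul_mem hg h2) ((k.mul h3).congr
    ?_ ?_ ?_ ?_)))) <;> simp [mkSL_coe] <;> grind

end Cf

end Cfsg.LT
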