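import Cfsg.Agent.LT.B2

/-! The two modules are self-centralizing. -/

set_option autoImplicit false
set_option linter.unusedSectionVars false

namespace Cfsg.LT

open Subgroup Cfsg.L0 Cfsg.FT Cfsg.H3

variable {G : Type*} [Group G] [Finite G] {F : Type*} [Field F] [Fintype F] [CharP F 2]

namespace Cf

variable {C : Cf F G} {i j ε ε' : Bool} {g g' h x y : G} {s t s' t' a b c d : F} {σ τ : F ≃+* F}
  {m m' : Bool → F} {A P T : Subgroup G}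

theorem nv_other (h : g ∈ 𝒩 C.J) (h' : g ∈ 𝒩 (C.V i)) (j : Bool) : g ∈ 𝒩 (C.V j) := by
  obtain ⟨ε, σ, m, k⟩ := ex_dt h
  obtain rfl := k.eps h'
  exact k.nv j

theorem two_le (hP : IsPGroup 2 P) (h : C.J ≤ P) (h' : P ≤ 𝒩 (C.V i)) : P ≤ 𝒩 C.J := by
  have : Fact (Nat.Prime 2) := ⟨Nat.prime_two⟩
  rw [← (C.sd i).syl.eq_of_le (hP.to_inf_left (K := C.L i)) (le_inf h (C.JL i)) inf_le_right]
  exact le_norm_inf (le_norm _) (C.NL i ▸ h')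

theorem CJ (h : ∀ i, x ∈ 𝒞 (C.V i)) : x ∈ 𝒞 C.J := cent_symm (A := C.J) (B := zpowers x)
  (J_le fun i => cent_symm (zpowers_le.2 (h i))) (mem_zpowers x)

theorem VCJ (h : x ∈ C.V i) (h' : x ∈ 𝒞 C.J) : x ∈ C.Z := by
  obtain ⟨s, t, rfl⟩ := ((C.sd i).memV x).1 h
  obtain rfl := of_other' (cent_anti (C.VJ _) h')
  exact C.v0 i s ▸ C.zZ s

theorem cent_dec (h : x ∈ 𝒩 C.J) (h' : x ∈ 𝒞 (C.V i)) : ∃ k, x * C.v i 0 k ∈ 𝒞 C.J := by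
  obtain ⟨ε, σ, m, k⟩ := ex_dt h
  obtain rfl := k.eps (cent_le_norm _ h')
  have e := (C.sd i).ac_iff.2 h'
  have hσ : ∀ t, m i * σ t = t := fun t => by
    obtain ⟨r, e'⟩ := k.act i 0 t
    simpa using ((C.md i).eq ((e 0 t).symm.trans (by simpa using e'))).2.symm
  have m1 : m i = 1 := by simpa using hσ 1
  simp only [m1, one_mul] at hσ
  obtain ⟨r, e1⟩ := k.lin hσ i
  obtain ⟨r', e2⟩ := k.lin hσ (!i)
  have c1 := ((C.md i).uniq e1 e).1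
  have m2 : m (!i) = 1 := by cases i <;> simp_all
  have := C.cr (!i) 0 r'
  rw [Bool.not_not] at this
  have k2 := (C.sd _).ac_iff.1 ((e2.mul this).congr (by grind) (by grind) (by grind) (by grind))
  refine ⟨r', CJ fun j => ?_⟩
  by_cases q : j = i
  · subst q; exact mul_mem h' ((C.sd _).abel (C.vm _ _ _))
  · exact Bool.eq_not.2 q ▸ k2

theorem fpf (e : Ac (C.v i) h a 0 0 d) (ha : a ≠ 1) (hd : d ≠ 1) (hx : x ∈ C.V i) :
    ∃ y ∈ C.V i, h * y * h⁻¹ * y = x ∧ (x ∈ C.Z → y ∈ C.Z) := by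
  obtain ⟨s, t, rfl⟩ := ((C.sd i).memV x).1 hx
  refine ⟨_, C.vm i (s / (a + 1)) (t / (d + 1)), ?_, fun k => ?_⟩
  · rw [e, ← (C.md i).add]; congr 1 <;> grind
  · rw [of_other' ((C.sd _).abel (C.ZV _ k)), zero_div, C.v0]; exact C.zZ _

theorem fpf' (e : Ac (C.v i) h a 0 0 d) (ha : a ≠ 1) (hd : d ≠ 1) (hx : x ∈ C.V i)
    (k : h * x = x * h) : x = 1 := by
  obtain ⟨s, t, rfl⟩ := ((C.sd i).memV x).1 hx
  have := (C.md i).eq ((e s t).symm.trans (mul_inv_eq_iff_eq_mul.2 k))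
  rw [show s = 0 by grind, show t = 0 by grind, (C.md i).zero]

theorem adj (e : Ac (C.v i) h a 0 0 d) (ha : a ≠ 1) (hd : d ≠ 1) (hx : x⁻¹ * h * x * h⁻¹ ∈ C.V i) :
    ∃ y ∈ C.V i, h * (x * y) = x * y * h ∧ (x⁻¹ * h * x * h⁻¹ ∈ C.Z → y ∈ C.Z) := by
  obtain ⟨y, hy, k, k'⟩ := fpf e ha hd hx
  refine ⟨y, hy, ?_, k'⟩
  have c := mem_cent.1 ((C.sd i).abel hy) _ hx
  calc _ = x * (x⁻¹ * h * x * h⁻¹) * (h * y * h⁻¹ * y) * y⁻¹ * h := by group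
    _ = _ := by rw [k, mul_assoc x, vsq hx, inv_eq_of_mul_eq_one_left (vsq hy), mul_one]

variable (C) in
theorem ex_h (i : Bool) : ∃ h ∈ C.L i, ∃ a d, a ≠ 1 ∧ d ≠ 1 ∧ a * d = 1 ∧ Ac (C.v i) h a 0 0 d ∧
    h ∈ 𝒩 C.J := by
  obtain ⟨l, l0, l1⟩ := exists_big (F := F) (n := 2) one_lt_two C.h2
  obtain ⟨h, hh, e⟩ := (C.sd i).sur l 0 0 l⁻¹ (by grind)
  exact ⟨h, hh, l, l⁻¹, by grind, by grind, by grind, e, NV (C.LV i hh) one_ne_zero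
    (by rw [← C.v0 i, e]; simpa [C.v0] using C.zZ l)⟩

theorem CV (hT : H8.IsSyl 2 T (𝒩 (C.L true))) (hJ : C.J ≤ T)
    (hO : ∀ N ≤ T, T ≤ 𝒩 N → (∀ i, C.L i ≤ 𝒩 N) → N = ⊥) (i : Bool) : 𝒞 (C.V i) ≤ C.V i := by
  have : Fact (Nat.Prime 2) := ⟨Nat.prime_two⟩
  rw [← C.NL] at hT
  have TJ := two_le hT.isPGroup hJ hT.le
  have TV : ∀ i, T ≤ 𝒩 (C.V i) := fun i g hg => nv_other (TJ hg) (hT.le hg) i
  have sy : ∀ i, H8.IsSyl 2 T (𝒩 (C.V i)) := fun i => by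
    obtain ⟨S, hS, k⟩ := H8.exists_isSyl_ge hT.isPGroup (TV i)
    rwa [hT.eq_of_le hS.isPGroup k fun g hg =>
      nv_other (two_le hS.isPGroup (hJ.trans k) hS.le hg) (hS.le hg) _] at hS
  have VT : ∀ i, C.V i ≤ T ⊓ 𝒞 (C.V i) := fun i => le_inf ((C.VJ i).trans hJ) (C.sd i).abel
  have dec : ∀ i, ∀ x ∈ T ⊓ 𝒞 (C.V i), ∃ d ∈ T ⊓ 𝒞 C.J, ∃ y ∈ C.V i, x = d * y := fun i x hx => by
    obtain ⟨k, e⟩ := cent_dec (TJ hx.1) hx.2
    exact ⟨_, ⟨mul_mem hx.1 (hJ (C.vJ _ _ _)), e⟩, _, C.vm i 0 k, by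
      rw [mul_assoc, (C.md i).sq, mul_one]⟩
  have DR : ∀ i, T ⊓ 𝒞 C.J ≤ T ⊓ 𝒞 (C.V i) := fun i => inf_le_inf_left _ (cent_anti (C.VJ i))
  have cm : ∀ i, ∀ l ∈ C.L i, ∀ x ∈ T ⊓ 𝒞 (C.V i), x⁻¹ * l * x * l⁻¹ ∈ C.V i := fun i l hl x hx =>
    (C.sd i).ker _ (mul_mem (conj_mem_of_norm' (C.NL i ▸ TV i hx.1) hl) (inv_mem hl))
      ((C.sd i).ac_iff.2 (by
        simpa [mul_assoc] using mul_mem ((𝒞 (C.V i)).inv_mem hx.2)
          (conj_mem_of_norm (norm_le_norm_cent _ (C.LV i hl)) hx.2)))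
  have LR : ∀ i, ∀ l ∈ C.L i, ∀ x ∈ T ⊓ 𝒞 (C.V i), l * x * l⁻¹ ∈ T ⊓ 𝒞 (C.V i) := fun i l hl x hx => by
    simpa [mul_assoc] using mul_mem hx (VT i (cm i l hl x hx))
  have sqe : ∀ i, ∀ x ∈ T ⊓ 𝒞 (C.V i), ∃ d ∈ T ⊓ 𝒞 C.J, d * d = x * x := fun i x hx => by
    obtain ⟨d, hd, y, hy, rfl⟩ := dec i x hx
    refine ⟨d, hd, ?_⟩
    rw [mul_assoc d y, ← mul_assoc y, mem_cent.1 (DR i hd).2 y hy, mul_assoc d y, vsq hy, mul_one]
  have sq : ∀ i, ∀ x ∈ T ⊓ 𝒞 (C.V i), x * x = 1 := fun i x hx => by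
    obtain ⟨d, hd, e⟩ := sqe i x hx
    refine eq_one_of_mem (hO (closure {y | ∃ d ∈ T ⊓ 𝒞 C.J, d * d = y}) ((closure_le _).2 ?_)
      (fun g hg => mem_norm_closure ?_) fun j g hg => mem_norm_closure ?_) (subset_closure ⟨d, hd, e⟩)
    · rintro _ ⟨d, hd, rfl⟩; exact mul_mem hd.1 hd.1
    · rintro _ ⟨d, hd, rfl⟩
      exact ⟨_, conj_mem_of_norm (le_norm_inf (le_norm _) (le_norm_cent TJ) hg) hd, by group⟩
    · rintro _ ⟨d, hd, rfl⟩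
      obtain ⟨d', hd', e⟩ := sqe j _ (LR j g hg d (DR j hd))
      exact ⟨d', hd', e.trans (by group)⟩
  have ab : ∀ i, ∀ x ∈ T ⊓ 𝒞 (C.V i), ∀ y ∈ T ⊓ 𝒞 (C.V i), x * y = y * x := fun i x hx y hy => by
    rw [← inv_eq_of_mul_eq_one_left (sq i _ (mul_mem hx hy)), mul_inv_rev,
      inv_eq_of_mul_eq_one_left (sq i x hx), inv_eq_of_mul_eq_one_left (sq i y hy)]
  choose h hL a d a1 d1 ad hA hN using C.ex_h
  have hD : ∀ i, ∀ x ∈ T ⊓ 𝒞 C.J, x⁻¹ * h i * x * (h i)⁻¹ ∈ C.Z := fun i x hx =>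
    VCJ (cm i _ (hL i) x (DR i hx)) (by
      simpa [mul_assoc] using mul_mem ((𝒞 C.J).inv_mem hx.2)
        (conj_mem_of_norm (norm_le_norm_cent _ (hN i)) hx.2))
  have ZD : C.Z ≤ T ⊓ 𝒞 C.J := le_inf (C.ZJ.trans hJ) (cent_symm C.JZ)
  have E1 : ∀ i, ∀ x ∈ T ⊓ 𝒞 (C.V i), h i * x = x * h i → x ∈ 𝒞 C.J := fun i x hx e => by
    obtain ⟨d, hd, y, hy, rfl⟩ := dec i x hx
    obtain ⟨u, hu, k, k'⟩ := adj (hA i) (a1 i) (d1 i) (C.ZV i (hD i d hd))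
    have := fpf' (hA i) (a1 i) (d1 i) (mul_mem (inv_mem hu) hy) (by
      rw [show u⁻¹ * y = (d * u)⁻¹ * (d * y) by group]
      exact ((Commute.inv_right k).mul_right e).eq)
    rw [← inv_mul_eq_one.1 this]
    exact mul_mem hd.2 (ZD (k' (hD i d hd))).2
  have E2 : ∀ i, ∀ x ∈ T ⊓ 𝒞 (C.V i), h i * x = x * h i → x ∈ 𝒞 (C.L i) := fun i x hx e => by
    obtain ⟨w, hw, k⟩ := (C.sd i).sur 0 1 1 0 (by simp)
    have k' := k.inv (a' := 0) (b' := 1) (c' := 1) (d' := 0) (by simp) (by simp) (by simp) (by simp)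
    have h1 := (C.sd i).ker _ (mul_mem (mul_mem (mul_mem (inv_mem hw) (hL i)) hw) (hL i))
      ((((k'.mul (hA i)).mul k).mul (hA i)).congr (by grind) (by ring) (by ring) (by grind))
    have h2 := E1 i _ (LR i w hw x hx) (by
      have := (Commute.mul_left (mem_cent.1 hx.2 _ h1) (Commute.inv_left e)).eq
      calc _ = w * (w⁻¹ * h i * w * h i * (h i)⁻¹ * x) * w⁻¹ := by group
        _ = _ := by rw [this]; group)
    refine le_cent1_iff.1 (L_le (le_cent1_iff.2 (E1 i x hx e)) fun t => ⟨w⁻¹ * C.v (!i) 0 t * w, ?_,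
      mul_mem (mul_mem (inv_mem hw) (C.JL i (C.vJ _ _ _))) hw,
      ((k'.mul (C.cr i 0 t)).mul k).congr (by ring) (by ring) (by ring) (by ring)⟩)
    have := mem_cent.1 h2 _ (C.vJ (!i) 0 t)
    rw [mem_cent1]
    calc _ = w⁻¹ * (C.v (!i) 0 t * (w * x * w⁻¹)) * w := by group
      _ = _ := by rw [this]; group
  have DZ : T ⊓ 𝒞 C.J ≤ C.Z := fun x hx => by
    obtain ⟨u, hu, k, k'⟩ := adj (hA false) (a1 _) (d1 _) (C.ZV _ (hD false x hx))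
    have hy := mul_mem hx (ZD (k' (hD _ x hx)))
    have c2 := E2 _ _ (DR _ hy) k
    have c1 : h true * (x * u) = x * u * h true := by
      obtain ⟨s, e⟩ := mem_Z.1 (hD true _ hy)
      have : C.z s ∈ 𝒞 (C.L false) := by
        simpa [← e, mul_assoc] using mul_mem (inv_mem c2) (conj_mem_of_norm (norm_le_norm_cent _
          (C.NL false ▸ nv_other (hN true) (C.LV _ (hL true)) false)) c2)
      have := fpf' (hA false) (a1 _) (d1 _) (C.zV _ s) (mem_cent.1 this _ (hL _))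
      rw [this, mul_inv_eq_one, mul_assoc, inv_mul_eq_iff_eq_mul] at e
      exact e
    have := eq_one_of_mem (hO (T ⊓ 𝒞 (C.L true ⊔ C.L false)) inf_le_left (le_norm_inf (le_norm _)
      (le_norm_cent (le_norm_sup (C.NL _ ▸ TV _) (C.NL _ ▸ TV _)))) fun j => le_norm_of_le_cent
      (cent_symm (inf_le_right.trans (cent_anti (by cases j; exacts [le_sup_right, le_sup_left])))))
      ⟨hy.1, cent_sup (C.L true) _ ▸ ⟨E2 _ _ (DR _ hy) c1, c2⟩⟩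
    rw [mul_eq_one_iff_eq_inv] at this
    exact this ▸ inv_mem (k' (hD _ x hx))
  have pV : IsPGroup 2 (C.V i) := C.pJ.to_le (C.VJ i)
  have z1 := C.zne (one_ne_zero (α := F))
  have nV := ne_bot_of_mem (C.zV i 1) z1
  have Q1 := (sy i).le_of_normalizes (H7.isPGroup_pCoreOf 2 _) (H7.pCoreOf_le 2 _)
    ((TV i).trans (H7.le_normalizer_pCoreOf 2 _))
  obtain ⟨u, hu, u1⟩ := exists_ne_one (inf_cent_ne_bot_of_pgroup Nat.prime_two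
    (H7.isPGroup_pCoreOf 2 _) pV (H7.pCoreOf_le 2 _) nV)
  have Q2 : C.V i ≤ 𝒞 (pCoreOf 2 (𝒩 (C.V i))) := fun x hx => by
    by_cases x1 : x = 1
    · exact x1 ▸ one_mem _
    obtain ⟨l, hl, rfl⟩ := trans i hx x1
    obtain ⟨l', hl', rfl⟩ := trans i hu.1 u1
    have n := (C.LV i).trans ((H7.le_normalizer_pCoreOf 2 _).trans (norm_le_norm_cent _))
    simpa [mul_assoc] using conj_mem_of_norm (n hl) (conj_mem_of_norm' (n hl') hu.2)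
  refine (le_inf (cent_le_norm _) (cent_anti fun x hx => ?_)).trans ((C.ch _ pV nV).trans fun x hx => ?_)
  all_goals
    obtain ⟨d, hd, y, hy, rfl⟩ := dec i x ⟨Q1 hx, cent_symm Q2 hx⟩
    exact mul_mem (C.ZV i (DZ hd)) hy

end Cf

theorem exists_cf (hG : IsCharacteristicTwoType G) (h2 : 2 < Fintype.card F) {L₁ L₂ J : Subgroup G}
    {v w : F → F → G} (h₁ : Sd L₁ (pCoreOf 2 L₁) J v) (h₂ : Sd L₂ (pCoreOf 2 L₂) J w)
    (hJ : J = pCoreOf 2 L₁ ⊔ pCoreOf 2 L₂) (m₁ : IsMaximalTwoLocal (𝒩 L₁))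
    (m₂ : IsMaximalTwoLocal (𝒩 L₂)) (T : Sylow 2 (𝒩 L₁))
    (hO : pCore 2 ↥((T : Subgroup (𝒩 L₁)).map (𝒩 L₁).subtype ⊔ L₁ ⊔ L₂) = ⊥) :
    ∃ C : Cf F G, ∀ i, 𝒞 (C.V i) ≤ C.V i := by
  have : Fact (Nat.Prime 2) := ⟨Nat.prime_two⟩
  obtain ⟨w, h₂, e1, e2, e3⟩ := h₁.norm h₂ hJ
  have n : ∀ {L : Subgroup G} {v : F → F → G}, Sd L (pCoreOf 2 L) J v → IsMaximalTwoLocal (𝒩 L) →
      𝒩 (pCoreOf 2 L) = 𝒩 L := fun h m => m.2 _ ⟨_, H7.isPGroup_pCoreOf 2 _, ne_bot_of_mem (h.mem 1 0)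
        fun e => one_ne_zero (h.inj _ _ e).1, rfl⟩ (H7.normalizer_le_normalizer_pCoreOf 2 _)
  let C : Cf F G := ⟨fun i => cond i L₁ L₂, fun i => cond i (pCoreOf 2 L₁) (pCoreOf 2 L₂), J,
    fun i => cond i v w, fun i => by cases i; exacts [h₂, h₁], e1, fun i => by cases i; exacts [e3, e2],
    fun i => by cases i; exacts [hJ ▸ le_sup_right, hJ ▸ le_sup_left],
    fun i => by cases i; exacts [n h₂ m₂, n h₁ m₁], fun T h h' => H7.charP_iff.1 (hG.2 T h h'), h2⟩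
  have sT := H8.isSyl_map_subtype T
  generalize (T : Subgroup (𝒩 L₁)).map (𝒩 L₁).subtype = T at sT hO
  obtain ⟨l, hl, e⟩ := h₁.syl.exists_cj_eq (sT.inf (le_norm _) sT.le)
  have hl' : l ∈ T ⊔ L₁ ⊔ L₂ := mem_sup_left (mem_sup_right hl)
  refine ⟨C, Cf.CV (T := cj l⁻¹ T) (sT.cj_of_mem (inv_mem (le_norm _ (le_norm _ hl))))
    ((cj_le_iff _).1 (e ▸ inf_le_left)) fun N h1 h2 h3 => eq_bot_of_le (H7.pCoreOf_eq_bot_iff.2 hO)
    (H7.le_pCoreOf ((H8.isPGroup_cj sT.isPGroup _).to_le h1) (h1.trans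
      (cj_le_of_mem (inv_mem hl') (le_sup_left.trans le_sup_left)))
      (sup_le (sup_le ?_ (h3 true)) (h3 false)))⟩
  rw [← cj_cj_inv l T]
  exact cj_le_of_mem (h3 true hl) h2

end Cfsg.LT
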