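import Cfsg.Agent.LT.B3

/-! Weak closure of the two modules. -/

set_option autoImplicit false
set_option linter.unusedSectionVars false

namespace Cfsg.LT

open Subgroup Cfsg.L0 Cfsg.FT Cfsg.H3

variable {G : Type*} [Group G] [Finite G] {F : Type*} [Field F] [Fintype F] [CharP F 2]

namespace Cf

variable {C : Cf F G} {i j ε ε' : Bool} {f g g' h x y : G} {s t s' t' a c d : F} {σ τ : F ≃+* F}
  {m m' : Bool → F} {A B P T : Subgroup G}

open Classical in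
variable (C) in
/-- coordinates on `J / Z` -/
noncomputable def b (i : Bool) (x : G) : F :=
  if h : ∃ t, Ac (C.v (!i)) x 1 t 0 1 then h.choose else 0

theorem b_ac (i : Bool) (h : x ∈ C.J) : Ac (C.v (!i)) x 1 (C.b i x) 0 1 := by
  have := (((C.sd (!i)).memJ x).1 h).2
  rw [b, dif_pos this]; exact this.choose_spec

theorem b_ac' (i : Bool) (h : x ∈ C.J) : Ac (C.v i) x 1 (C.b (!i) x) 0 1 := by
  simpa using b_ac (!i) h

theorem b_eq (h : x ∈ C.J) (e : Ac (C.v (!i)) x 1 t 0 1) : C.b i x = t :=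
  ((C.md _).uniq (b_ac i h) e).2.1

theorem b_mul (i : Bool) (h : x ∈ C.J) (h' : y ∈ C.J) : C.b i (x * y) = C.b i x + C.b i y :=
  b_eq (mul_mem h h') (((b_ac i h).mul (b_ac i h')).congr (by ring) (by ring) (by ring) (by ring))

variable (C) in
theorem b_v (i : Bool) (s t : F) : C.b i (C.v i s t) = t :=
  b_eq (C.vJ _ _ _) (by simpa using C.cr (!i) s t)

theorem b_V (h : x ∈ C.V (!i)) : C.b i x = 0 := b_eq (C.VJ _ h) ((C.sd _).ac_iff.2 ((C.sd _).abel h))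

theorem b_inv (i : Bool) (h : x ∈ C.J) : C.b i x⁻¹ = C.b i x := by
  have := b_mul i (inv_mem h) h
  rw [inv_mul_cancel, b_V (one_mem _)] at this
  grind

theorem V_of_b (h : x ∈ C.J) (e : C.b i x = 0) : x ∈ C.V (!i) :=
  (C.sd _).ker _ (C.JL _ h) (e ▸ b_ac i h)

theorem Z_of_b (h : x ∈ C.J) (e : ∀ i, C.b i x = 0) : x ∈ C.Z :=
  ⟨V_of_b h (e false), V_of_b h (e true)⟩

theorem b_Z (i : Bool) (h : x ∈ C.Z) : C.b i x = 0 := b_V (C.ZV _ h)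

theorem Z_of_V (h : x ∈ C.V i) (e : C.b i x = 0) : x ∈ C.Z := mem_Z' h (V_of_b (C.VJ _ h) e)

theorem Dt.b (h : C.Dt g ε σ m) (i : Bool) (hx : x ∈ C.J) :
    C.b (xor i ε) (g * x * g⁻¹) = m i * σ (C.b i x) := by
  obtain ⟨s, t, r, rfl⟩ := J_dec i hx
  obtain ⟨k, e⟩ := h.act i s t
  obtain ⟨k', e'⟩ := h.act (!i) 0 r
  rw [← conj_mul, e, e', b_mul _ (C.vJ _ _ _) (C.vJ _ _ _), b_mul _ (C.vJ _ _ _) (C.vJ _ _ _), b_v, b_v,
    b_V (C.vm _ _ _), b_V (by rw [← Bool.not_xor]; exact C.vm _ _ _), add_zero, add_zero]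

theorem sq_eq (h : x ∈ C.J) : x * x = C.z (C.b true x * C.b false x) := by
  obtain ⟨s, t, r, rfl⟩ := J_dec true h
  rw [C.sqJ, b_mul _ (C.vJ _ _ _) (C.vJ _ _ _), b_mul _ (C.vJ _ _ _) (C.vJ _ _ _), b_v,
    b_V (C.vm _ _ _), b_V (i := false) (C.vm true _ _), Bool.not_true, b_v, add_zero, zero_add, mul_comm]

theorem cm' (i : Bool) (h : x ∈ C.J) (s t : F) :
    x * C.v i s t * x⁻¹ * C.v i s t = C.z (C.b (!i) x * t) := by
  rw [(C.sd i).cm (b_ac' i h), C.v0]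

theorem card_Z (c : F → Prop) (h : ∀ x ∈ A, ∃ s, c s ∧ x = C.z s) : ♯A ≤ {s | c s}.ncard := by
  have e := Function.leftInverse_invFun (f := C.z) fun _ _ => C.zinj
  refine card_le_set (Function.invFun C.z) (Set.toFinite _) (fun x hx y hy k => ?_) fun x hx => ?_
  · obtain ⟨s, -, rfl⟩ := h x hx
    obtain ⟨t, -, rfl⟩ := h y hy
    rw [e, e] at k; rw [k]
  · obtain ⟨s, hs, rfl⟩ := h x hx
    rwa [e]

theorem card_Z' (h : A ≤ C.Z) : ♯A ≤ Fintype.card F := by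
  rw [← Nat.card_eq_fintype_card]
  exact (card_Z (fun _ => True) fun x hx => by simpa using mem_Z.1 (h hx)).trans (Set.ncard_le_card _)

theorem card_Fx (h : C.Dt f ε σ m) (hA : A ≤ C.Z) (e : ∀ x ∈ A, f * x = x * f) :
    ♯A ≤ (Fx (m true * m false) σ).ncard := card_Z _ fun x hx => by
  obtain ⟨s, rfl⟩ := mem_Z.1 (hA hx)
  exact ⟨s, C.zinj ((h.az s).symm.trans (mul_inv_eq_iff_eq_mul.2 (e _ hx))), rfl⟩

theorem Dt.sq (h : C.Dt g ε σ m) (e : g * g ∈ C.J) :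
    (∀ t, σ (σ t) = t) ∧ ∀ i, m (xor i ε) * σ (m i) = 1 :=
  ⟨((h.mul h).uniq (dt_J e)).2.2, ((h.mul h).uniq (dt_J e)).2.1⟩

theorem Dt.fix (h : C.Dt g true σ m) (hx : x ∈ C.J) (e : x * x = 1) (k : g * x = x * g) : x ∈ C.Z := by
  obtain ⟨i, hi⟩ := inv_mem_V hx e
  have := h.cj i ▸ conj_mem_cj (g := g) hi
  rw [k, mul_inv_cancel_right, Bool.xor_true] at this
  exact mem_Z' hi this

theorem dt_nv (h : g ∈ 𝒩 C.J) (h' : g ∉ 𝒩 (C.V i)) : ∃ σ m, C.Dt g true σ m := by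
  obtain ⟨ε, σ, m, k⟩ := ex_dt h
  cases ε; exacts [absurd (k.nv i) h', ⟨σ, m, k⟩]

theorem dt_nv' (h : g ∈ 𝒩 C.J) (h' : g ∈ 𝒩 (C.V i)) : ∃ σ m, C.Dt g false σ m := by
  obtain ⟨ε, σ, m, k⟩ := ex_dt h
  obtain rfl := k.eps h'
  exact ⟨σ, m, k⟩

theorem ri_nv (h : A ≤ 𝒩 C.J) : (𝒩 (C.V i)).relIndex A ≤ 2 := ri_two fun x hx y hy x1 y1 => by
  obtain ⟨σ, m, k⟩ := dt_nv (inv_mem (h hx)) (fun e => x1 (inv_mem_iff.1 e))
  obtain ⟨σ', m', k'⟩ := dt_nv (h hy) y1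
  exact (k.mul k').nv i

/-- the modules are self-centralizing -/
class Cv (C : Cf F G) : Prop where
  cv : ∀ i, 𝒞 (C.V i) ≤ C.V i

variable [C.Cv]

theorem Dt.K1 (h : C.Dt g false σ m) (hσ : ∀ t, σ t = t) (e : ∀ i, m i = 1) : g ∈ C.J := by
  obtain ⟨k, e1⟩ := h.lin hσ true
  exact (mul_mem_cancel_right (C.vJ _ _ _)).1 (C.VJ _ (Cv.cv true ((C.sd _).ac_iff.1
    ((e1.mul (C.cr true 0 k)).congr (by grind) (by grind) (by grind) (by grind)))))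

theorem Dt.K0 (h : C.Dt g false σ m) (hσ : ∀ t, σ t = t) (e : ∃ n, g ^ 2 ^ n = 1) : g ∈ C.J := by
  obtain ⟨n, e⟩ := e
  obtain ⟨τ, k⟩ := h.pow hσ (2 ^ n)
  exact h.K1 hσ fun i => eq_one_of_pow (((e ▸ k).uniq (dt_J (one_mem _))).2.1 i)

theorem Dt.out (h : C.Dt g ε σ m) (h' : C.Dt g' ε τ m') (s : ∀ t, σ (σ t) = t) (s' : ∀ t, τ (τ t) = t)
    (e : (∀ t, σ t = t) ↔ ∀ t, τ t = t) (k : ∃ n, (g * g') ^ 2 ^ n = 1) : g * g' ∈ C.J := by
  have := h.mul h'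
  rw [Bool.xor_self] at this
  refine this.K0 (fun t => ?_) k
  by_cases q : ∀ t, σ t = t
  · rw [RingEquiv.trans_apply, q, e.1 q]
  · rw [RingEquiv.trans_apply, ← aut_uniq s s' q (mt e.2 q), s]

theorem ri_J (h : A ≤ 𝒩 C.J) (h' : A ≤ 𝒩 (C.V i)) (hA : IsPGroup 2 A) (e : ∀ x ∈ A, x * x ∈ C.J) :
    C.J.relIndex A ≤ 2 := ri_two fun x hx y hy x1 y1 => by
  have p := H8.isPGroup_iff_forall.1 hA
  obtain ⟨σ, m, k⟩ := dt_nv' (inv_mem (h hx)) (inv_mem (h' hx))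
  obtain ⟨σ', m', k'⟩ := dt_nv' (h hy) (h' hy)
  exact k.out k' (k.sq (e _ (inv_mem hx))).1 (k'.sq (e _ hy)).1 (iff_of_false
    (fun q => x1 (inv_mem_iff.1 (k.K0 q (p _ (inv_mem hx))))) fun q => y1 (k'.K0 q (p _ hy)))
    (p _ (mul_mem (inv_mem hx) hy))

omit [C.Cv] in
theorem elem (e : ∀ x ∈ A, x * x = 1) : IsPGroup 2 A ∧ ∀ x ∈ A, ∀ y ∈ A, x * y = y * x :=
  ⟨H8.isPGroup_iff_forall.2 fun x hx => ⟨1, by simpa [pow_two] using e x hx⟩, fun x hx y hy => by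
    rw [← inv_eq_of_mul_eq_one_left (e _ (mul_mem hx hy)), mul_inv_rev,
      inv_eq_of_mul_eq_one_left (e x hx), inv_eq_of_mul_eq_one_left (e y hy)]⟩

theorem card_four (h : A ≤ 𝒩 C.J) (e : ∀ x ∈ A, x * x = 1) : ♯A ≤ ♯(C.J ⊓ A) * 4 := by
  have h1 := card_le_ri (ri_nv (i := true) h)
  have h2 := card_le_ri (ri_J (A := 𝒩 (C.V true) ⊓ A) (inf_le_right.trans h) inf_le_left
    ((elem e).1.to_inf_right) fun x hx => e x hx.2 ▸ one_mem _)
  have := card_le (inf_le_inf_left C.J (inf_le_right : 𝒩 (C.V true) ⊓ A ≤ A))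
  omega

theorem wcl (h : A ≤ 𝒩 C.J) (e : ∀ x ∈ A, x * x = 1) (hc : Fintype.card F * Fintype.card F ≤ ♯A) :
    ∃ i, A = C.V i := by
  have q := C.h2
  obtain ⟨pA, ab⟩ := elem e
  have p := H8.isPGroup_iff_forall.1 pA
  by_cases hJ : A ≤ C.J
  · obtain ⟨i, hi⟩ := le_V hJ e
    exact ⟨i, eq_of_card_le hi (C.card_V i ▸ hc)⟩
  exfalso
  by_cases hB : A ≤ 𝒩 (C.V true)
  · obtain ⟨f, hf, f1⟩ := SetLike.not_le_iff_exists.1 hJ
    obtain ⟨σ, m, k⟩ := dt_nv' (h hf) (hB hf)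
    have n : ¬ ∀ t, σ t = t := fun q => f1 (k.K0 q (p f hf))
    obtain ⟨i, hi⟩ := le_V (inf_le_left : C.J ⊓ A ≤ _) fun x hx => e x hx.2
    have h1 := card_le_ri (ri_J h hB pA fun x hx => e x hx ▸ one_mem _)
    have h2 := card_le_ri (ri_le (A := C.J ⊓ A) (B := C.Z) (C.b i) (Set.toFinite (Fx (m i) σ))
      (fun x hx y hy k => Z_of_V (mul_mem (inv_mem (hi hx)) (hi hy)) (by
        rw [b_mul _ (inv_mem hx.1) hy.1, b_inv _ hx.1, k, CharTwo.add_self_eq_zero])) fun x hx => by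
        have := k.b i hx.1
        rw [ab f hf x hx.2, mul_inv_cancel_right, Bool.xor_false] at this
        exact this.symm)
    have h3 := card_Fx (A := C.Z ⊓ (C.J ⊓ A)) k inf_le_left fun x hx => ab f hf x hx.2.2
    have h4 := fx_sq (m i) n
    have h5 := fx_sq (m true * m false) n
    have := Nat.mul_le_mul_right (Fx (m i) σ).ncard h3
    have : (Fx (m true * m false) σ).ncard * (Fx (m i) σ).ncard ≤ Fintype.card F :=
      (le_total (Fx (m i) σ).ncard (Fx (m true * m false) σ).ncard).elim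
        (fun l => (Nat.mul_le_mul_left _ l).trans h5) fun l => (Nat.mul_le_mul_right _ l).trans h4
    have := Nat.mul_le_mul_right (Fintype.card F) q
    omega
  · obtain ⟨g, hg, g1⟩ := SetLike.not_le_iff_exists.1 hB
    obtain ⟨τ, m', k'⟩ := dt_nv (h hg) g1
    have hZ : C.J ⊓ A ≤ C.Z := fun x hx => k'.fix hx.1 (e x hx.2) (ab g hg x hx.2)
    by_cases hJ' : 𝒩 (C.V true) ⊓ A ≤ C.J
    · have h1 := card_le_ri (ri_nv (i := true) h)
      have h2 := card_Z' ((le_inf hJ' inf_le_right).trans hZ)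
      nlinarith
    · obtain ⟨f, hf, f1⟩ := SetLike.not_le_iff_exists.1 hJ'
      obtain ⟨σ, m, k⟩ := dt_nv' (h hf.2) hf.1
      have h5 := fx_sq (m true * m false) fun q => f1 (k.K0 q (p f hf.2))
      have h3 := card_Fx k hZ fun x hx => ab f hf.2 x hx.2
      have h1 := card_four h e
      have h2 : Fintype.card F * Fintype.card F ≤ (Fx (m true * m false) σ).ncard * 4 := by omega
      have := Nat.mul_le_mul h2 h2
      have h6 : 3 * 3 ≤ Fintype.card F * Fintype.card F := Nat.mul_le_mul q q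
      nlinarith

theorem cj_V' (h : cj g (C.V i) ≤ 𝒩 C.J) : ∃ j, cj g (C.V i) = C.V j :=
  wcl h (fun x hx => by
    have := vsq (mem_cj.1 hx)
    rwa [show g⁻¹ * x * g * (g⁻¹ * x * g) = g⁻¹ * (x * x) * g⁻¹⁻¹ by group, conj_eq_one_iff] at this)
    (by rw [card_cj, C.card_V])

theorem NJ_of' (h : C.J ≤ P) (h' : P ≤ 𝒩 C.J) : 𝒩 P ≤ 𝒩 C.J := fun _ hg =>
  NJ_of fun i => cj_V' ((cj_le_of_le ((C.VJ i).trans h) hg).trans h')

theorem two_NJ (hP : IsPGroup 2 P) (h : C.J ≤ P) : P ≤ 𝒩 C.J := by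
  have : Fact (Nat.Prime 2) := ⟨Nat.prime_two⟩
  by_contra n
  obtain ⟨y, hy, y1, y2⟩ := H8.exists_mem_normalizer_not_mem hP (inf_le_left : P ⊓ 𝒩 C.J ≤ P)
    fun e => n (e ▸ inf_le_right)
  exact y2 ⟨hy, NJ_of' (le_inf h (le_norm _)) inf_le_right y1⟩

theorem two_NJ' (hP : IsPGroup 2 P) (h : C.J ≤ 𝒩 P) : P ≤ 𝒩 C.J :=
  le_sup_left.trans (two_NJ (pgroup_sup h hP C.pJ) le_sup_right)

end Cf

end Cfsg.LT
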