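import Cfsg.Agent.LT.B4

/-! The field with four elements: sectional rank at most four. -/

set_option autoImplicit false
set_option linter.unusedSectionVars false

namespace Cfsg.LT

open Subgroup Cfsg.L0 Cfsg.FT Cfsg.H3

variable {G : Type*} [Group G] [Finite G] {F : Type*} [Field F] [Fintype F] [CharP F 2]

theorem ri_mono {A B K : Subgroup G} (h : A ≤ B) : B.relIndex K ≤ A.relIndex K :=
  relIndex_le_of_le_left h (H8.relIndex_pos _ _).ne'

theorem ncard_lt {α : Type*} [Fintype α] {T : Set α} {a : α} (h : a ∉ T) : T.ncard < Fintype.card α := by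
  rw [← Nat.card_eq_fintype_card, ← Set.ncard_univ]
  exact Set.ncard_lt_ncard (Set.ssubset_univ_iff.2 fun e => h (e ▸ trivial))

theorem ri_half {A K : Subgroup G} (hA : IsPGroup 2 A) {n : ℕ} (h : K.relIndex A < 2 ^ (n + 1)) :
    K.relIndex A ≤ 2 ^ n := by
  have : Fact (Nat.Prime 2) := ⟨Nat.prime_two⟩
  obtain ⟨k, e⟩ := H8.exists_relIndex_eq_pow hA K
  rw [e] at h ⊢
  exact Nat.pow_le_pow_right two_pos (Nat.lt_succ_iff.1 ((Nat.pow_lt_pow_iff_right one_lt_two).1 h))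

namespace Cf

variable {C : Cf F G} {i j ε ε' : Bool} {f g g' h x y : G} {s t s' t' a c d : F} {σ τ : F ≃+* F}
  {m m' : Bool → F} {A B N P : Subgroup G}

/-- an elementary abelian quotient -/
structure Eq2 (C : Cf F G) (P N : Subgroup G) : Prop where
  two : IsPGroup 2 P
  le : P ≤ 𝒩 C.J
  nm : P ≤ 𝒩 N
  sq : ∀ x ∈ P, x * x ∈ N

theorem Eq2.cm (k : C.Eq2 P N) (hx : x ∈ P) (hy : y ∈ P) : x⁻¹ * (y * x * y⁻¹) ∈ N := by
  convert mul_mem (mul_mem (k.sq _ (inv_mem hx)) (k.sq _ (mul_mem hx hy))) (k.sq _ (inv_mem hy)) using 1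
  group

theorem Eq2.tower (k : C.Eq2 P N) (h : B ≤ A) (h' : A ≤ P) :
    N.relIndex A = N.relIndex B * (N ⊔ B).relIndex A := by
  have n : A ≤ 𝒩 (N ⊔ B) := fun a ha => H8.mem_normalizer_of_forall fun x hx => by
    obtain ⟨u, hu, w, hw, rfl⟩ := (mem_sup_l ((h.trans h').trans k.nm)).1 hx
    convert mul_mem (mul_mem (mem_sup_left (conj_mem_of_norm (k.nm (h' ha)) hu)) (mem_sup_right hw))
      (mem_sup_left (k.cm (h' (h hw)) (h' ha))) using 1
    group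
  rw [← ri_sup (h'.trans k.nm), ← ri_sup ((h.trans h').trans k.nm), ← ri_sup n,
    ← ri_mul le_sup_left (sup_le_sup_left h N), sup_assoc, sup_eq_right.2 h]

theorem Eq2.fix (k : C.Eq2 P N) (hf : f ∈ P) (d : C.Dt f ε σ m) {T : Set (F × F)}
    (hT : ∀ x ∈ C.J ⊓ P, (∀ i, C.b (xor i ε) x = m i * σ (C.b i x)) → (C.b true x, C.b false x) ∈ T) :
    (N ⊔ C.Z ⊓ P).relIndex (C.J ⊓ P) ≤ T.ncard := by
  have cj : ∀ x ∈ C.J ⊓ P, f * x * f⁻¹ ∈ C.J ⊓ P := fun x hx =>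
    ⟨conj_mem_of_norm d.mem hx.1, P.mul_mem (mul_mem hf hx.2) (inv_mem hf)⟩
  let δ : G → Bool → F := fun x i => C.b i x + C.b i (f * x * f⁻¹)
  have dm : ∀ x ∈ C.J ⊓ P, ∀ y ∈ C.J ⊓ P, δ (x * y) = δ x + δ y := fun x hx y hy => funext fun i => by
    simp only [δ, Pi.add_apply]
    rw [← conj_mul, b_mul _ hx.1 hy.1, b_mul _ (cj x hx).1 (cj y hy).1]; ring
  have di : ∀ x ∈ C.J ⊓ P, δ x⁻¹ = δ x := fun x hx => funext fun i => by
    simp only [δ]; rw [← conj_inv, b_inv _ hx.1, b_inv _ (cj x hx).1]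
  have d1 : δ 1 = 0 := funext fun i => by simp [δ, CharTwo.add_self_eq_zero]
  let I : Subgroup G :=
    { carrier := {y | y ∈ C.J ⊓ P ∧ ∃ x ∈ C.J ⊓ P, ∀ i, C.b i y = δ x i}
      one_mem' := ⟨one_mem _, 1, one_mem _, fun i => by rw [d1, b_V (one_mem _)]; rfl⟩
      mul_mem' := fun ⟨h1, x, hx, e⟩ ⟨h2, y, hy, e'⟩ => ⟨mul_mem h1 h2, _, mul_mem hx hy, fun i => by
        rw [dm x hx y hy, b_mul _ h1.1 h2.1, e, e']; rfl⟩
      inv_mem' := fun ⟨h1, x, hx, e⟩ => ⟨inv_mem h1, x, hx, fun i => by rw [b_inv _ h1.1, e]⟩ }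
  let D : Subgroup G :=
    { carrier := {y | y ∈ C.J ⊓ P ∧ δ y = 0}
      one_mem' := ⟨one_mem _, d1⟩
      mul_mem' := fun ⟨h1, e⟩ ⟨h2, e'⟩ => ⟨mul_mem h1 h2, by rw [dm _ h1 _ h2, e, e', add_zero]⟩
      inv_mem' := fun ⟨h1, e⟩ => ⟨inv_mem h1, by rw [di _ h1, e]⟩ }
  have ZJ : C.Z ⊓ P ≤ C.J ⊓ P := inf_le_inf_right _ C.ZJ
  have bz : ∀ x ∈ C.J ⊓ P, ∀ y ∈ C.J ⊓ P, (∀ i, C.b i x = C.b i y) → x⁻¹ * y ∈ C.Z ⊓ P :=
    fun x hx y hy e => ⟨Z_of_b (mul_mem (inv_mem hx) hy).1 fun i => by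
      rw [b_mul _ (inv_mem hx).1 hy.1, b_inv _ hx.1, e, CharTwo.add_self_eq_zero],
      (mul_mem (inv_mem hx) hy).2⟩
  have h1 : I ≤ N ⊔ C.Z ⊓ P := fun y ⟨hy, x, hx, e⟩ => by
    have m1 := mul_mem (inv_mem hx) (cj x hx)
    have := mul_mem_sup (k.cm hx.2 hf) (bz _ m1 y hy fun i => by
      rw [e, b_mul _ (inv_mem hx).1 (cj x hx).1, b_inv _ hx.1])
    rwa [mul_inv_cancel_left] at this
  have h2 := ri_mul (show C.Z ⊓ P ≤ I from fun y hy => ⟨ZJ hy, 1, one_mem _, fun i => by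
    rw [d1, b_Z _ hy.1]; rfl⟩) (show I ≤ C.J ⊓ P from fun _ h => h.1)
  have h3 := ri_mul (show C.Z ⊓ P ≤ D from fun y hy => ⟨ZJ hy, funext fun i => by
    simp only [δ]; rw [b_Z _ hy.1, b_Z _ (conj_mem_of_norm (NJZ d.mem) hy.1), add_zero]; rfl⟩)
    (show D ≤ C.J ⊓ P from fun _ h => h.1)
  have h4 := (ri_le (A := C.J ⊓ P) (B := D) δ (Set.toFinite (δ '' (C.J ⊓ P :))) (fun x hx y hy e =>
    ⟨mul_mem (inv_mem hx) hy, by
      rw [dm _ (inv_mem hx) _ hy, di _ hx, e]; exact funext fun i => CharTwo.add_self_eq_zero _⟩)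
    fun x hx => ⟨x, hx, rfl⟩).trans (le_ri (A := I) (B := C.Z ⊓ P) (fun x i => C.b i x)
      (fun x hx y hy e => funext fun i => by
        have := b_Z i e.1
        rw [b_mul _ (inv_mem hx.1).1 hy.1.1, b_inv _ hx.1.1] at this
        exact CharTwo.add_eq_zero.1 this) (by
      rintro _ ⟨x, hx, rfl⟩
      have e : ∀ i, C.b i (x⁻¹ * (f * x * f⁻¹)) = δ x i := fun i => by
        rw [b_mul _ (inv_mem hx).1 (cj x hx).1, b_inv _ hx.1]
      exact ⟨_, ⟨mul_mem (inv_mem hx) (cj x hx), x, hx, e⟩, funext e⟩))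
  have h5 := ri_le (A := D) (B := C.Z ⊓ P) (fun x => (C.b true x, C.b false x)) (Set.toFinite T)
    (fun x hx y hy e => bz x hx.1 y hy.1 fun i => by
      cases i; exacts [congrArg Prod.snd e, congrArg Prod.fst e]) fun x hx => hT x hx.1 fun i => by
      rw [← d.b i hx.1.1]; exact CharTwo.add_eq_zero.1 (congrFun hx.2 _)
  refine (ri_mono h1).trans (le_trans (Nat.le_of_mul_le_mul_left ?_ (H8.relIndex_pos (C.Z ⊓ P) I)) h5)
  rw [h2, ← h3, mul_comm]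
  exact Nat.mul_le_mul_right _ h4

variable [C.Cv]

theorem Eq2.le16 (k : C.Eq2 P N) (q : Fintype.card F = 4) : N.relIndex P ≤ 16 := by
  have p := H8.isPGroup_iff_forall.1 k.two
  have p4 : ∀ t : F, t ^ 4 = t := fun t => q ▸ FiniteField.pow_card t
  have s2 : ∀ (σ : F ≃+* F) t, σ (σ t) = t := fun σ t => by
    by_cases e : t * t + t = 0
    · rcases (show t = 0 ∨ t = 1 by grind) with rfl | rfl <;> simp
    · have e1 : t * t + t + 1 = 0 := by have := p4 t; grind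
      have e2 := congrArg σ e1
      simp only [map_add, map_mul, map_one, map_zero] at e2
      rcases (show σ t = t ∨ σ t = t + 1 by grind) with e | e <;> simp only [e, map_add, map_one]
      grind
  have sJ : ∀ x ∈ P, x * x ∈ C.J := fun x hx => by
    obtain ⟨ε, σ, m, d⟩ := ex_dt (k.le hx)
    exact d.out d (s2 _) (s2 _) Iff.rfl (p _ (mul_mem hx hx))
  have t1 := k.tower (inf_le_right : C.J ⊓ P ≤ P) le_rfl
  rw [k.tower (inf_le_inf_right _ C.ZJ) inf_le_right] at t1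
  have y0 : (N ⊔ C.J ⊓ P).relIndex P ≤ C.J.relIndex P := inf_relIndex_right C.J P ▸ ri_mono le_sup_right
  have y1 := relIndex_inf_mul_relIndex C.J (𝒩 (C.V true)) P
  have y2 := ri_nv (i := true) k.le
  have y3 := ri_J (A := 𝒩 (C.V true) ⊓ P) (inf_le_right.trans k.le) inf_le_left k.two.to_inf_right
    fun x hx => sJ x hx.2
  rw [inf_eq_left.2 ((C.JL true).trans (C.LV true))] at y1
  have cZ := card_Z' (inf_le_left : C.Z ⊓ P ≤ _)
  have r0 := card_inf_mul_ri N (C.Z ⊓ P)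
  have r4 : N.relIndex (C.Z ⊓ P) ≤ 4 := by have := card_pos' (N ⊓ (C.Z ⊓ P)); nlinarith
  have r2 : ∀ u ∈ N ⊓ (C.Z ⊓ P), u ≠ 1 → N.relIndex (C.Z ⊓ P) ≤ 2 := fun u hu u1 => by
    have := one_lt_card (ne_bot_of_mem hu u1); nlinarith
  have r2' : ∀ x ∈ C.J ⊓ P, x * x ≠ 1 → N.relIndex (C.Z ⊓ P) ≤ 2 := fun x hx =>
    r2 _ ⟨k.sq x hx.2, sq_eq hx.1 ▸ C.zZ _, mul_mem hx.2 hx.2⟩
  have r1 : (∀ s, ∃ x ∈ P, x * x = C.z s) → N.relIndex (C.Z ⊓ P) = 1 := fun h =>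
    relIndex_eq_one.2 fun y hy => by
      obtain ⟨s, rfl⟩ := mem_Z.1 hy.1
      obtain ⟨x, hx, e⟩ := h s
      exact e ▸ k.sq x hx
  have fx : ∀ (c : F) (σ : F ≃+* F), (¬ ∀ t, σ t = t) → (Fx c σ).ncard ≤ 2 := fun c σ n => by
    have := fx_sq c n; nlinarith
  have rσ : ∀ f ∈ P, ∀ ε σ m, C.Dt f ε σ m → (¬ ∀ t, σ t = t) → N.relIndex (C.Z ⊓ P) ≤ 2 :=
    fun f hf ε σ m d n => by
      by_cases e : ∀ x ∈ C.Z ⊓ P, f * x = x * f
      · have := (card_Fx d inf_le_left e).trans (fx _ _ n)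
        have := card_pos' (N ⊓ (C.Z ⊓ P)); nlinarith
      · push Not at e
        obtain ⟨x, hx, e⟩ := e
        exact r2 _ ⟨k.cm hx.2 hf, (C.Z ⊓ P).mul_mem (inv_mem hx) (conj_mem_of_norm
          (le_norm_inf (k.le.trans NJZ) (le_norm _) hf) hx)⟩ fun h => e (by
          rw [inv_mul_eq_one, eq_mul_inv_iff_mul_eq] at h; exact h.symm)
  have xt : ∀ f ∈ P, ∀ σ m, C.Dt f true σ m → ∀ T : Set F, (∀ x ∈ C.J ⊓ P,
      C.b false x = m true * σ (C.b true x) → C.b true x ∈ T) →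
      (N ⊔ C.Z ⊓ P).relIndex (C.J ⊓ P) ≤ T.ncard := fun f hf σ m d T h =>
    (k.fix hf d (T := (fun t => (t, m true * σ t)) '' T) fun x hx e =>
      ⟨_, h x hx (e true), Prod.ext rfl (e true).symm⟩).trans (Set.ncard_image_le (Set.toFinite _))
  have x4 : ∀ f ∈ P, f ∉ C.J → (N ⊔ C.Z ⊓ P).relIndex (C.J ⊓ P) ≤ 4 := fun f hf f1 => by
    obtain ⟨ε, σ, m, d⟩ := ex_dt (k.le hf)
    cases ε
    · have n : ¬ ∀ t, σ t = t := fun e => f1 (d.K0 e (p f hf))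
      refine (k.fix hf d (T := Fx (m true) σ ×ˢ Fx (m false) σ) fun x hx e =>
        ⟨(e true).symm, (e false).symm⟩).trans ?_
      rw [Set.ncard_prod]; exact Nat.mul_le_mul (fx _ _ n) (fx _ _ n)
    · simpa [q] using xt f hf σ m d Set.univ fun _ _ _ => trivial
  have y4 : C.J.relIndex P ≤ 4 := y1 ▸ Nat.mul_le_mul y3 y2
  have xg : ∀ T : Set (F × F), (∀ x ∈ C.J ⊓ P, (C.b true x, C.b false x) ∈ T) →
      (N ⊔ C.Z ⊓ P).relIndex (C.J ⊓ P) ≤ T.ncard := fun T h =>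
    k.fix (one_mem _) (dt_J (one_mem _)) fun x hx _ => h x hx
  generalize N.relIndex (C.Z ⊓ P) = r at *
  generalize hX : (N ⊔ C.Z ⊓ P).relIndex (C.J ⊓ P) = X at *
  generalize (N ⊔ C.J ⊓ P).relIndex P = Y at *
  by_cases all : ∀ s, ∃ x ∈ P, x * x = C.z s
  · by_cases hJ : P ≤ C.J
    · have := xg Set.univ fun _ _ => trivial
      rw [Set.ncard_univ, Nat.card_eq_fintype_card, Fintype.card_prod, q] at this
      rw [relIndex_eq_one.2 hJ] at y0
      rw [t1, r1 all]; nlinarith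
    · obtain ⟨f, hf, f1⟩ := SetLike.not_le_iff_exists.1 hJ
      have := x4 f hf f1
      rw [t1, r1 all]; nlinarith
  obtain ⟨s, hs⟩ := not_forall.1 all
  have ns : ∀ x ∈ C.J ⊓ P, C.b true x * C.b false x ≠ s := fun x hx e =>
    hs ⟨x, hx.2, by rw [sq_eq hx.1, e]⟩
  by_cases hJ : P ≤ C.J
  · by_cases el : ∀ x ∈ P, x * x = 1
    · obtain ⟨i, hi⟩ := le_V hJ el
      have := card_le hi
      rw [C.card_V, q] at this
      exact (Nat.le_of_dvd (card_pos' P) (ri_dvd_card N P)).trans this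
    · push Not at el
      obtain ⟨x, hx, e⟩ := el
      have h1 := r2' x ⟨hJ hx, hx⟩ e
      have := (xg {p | p.1 * p.2 ≠ s} ns).trans_lt (ncard_lt (a := (s, 1)) (by simp))
      rw [Fintype.card_prod, q, ← hX] at this
      have := Nat.mul_le_mul h1 (hX ▸ ri_half (n := 3) k.two.to_inf_right this)
      rw [relIndex_eq_one.2 hJ] at y0
      rw [t1]; nlinarith
  have xs : ∀ g ∈ P, ∀ σ m, C.Dt g true σ m → (∀ t, σ t = t) → X ≤ 2 := fun g hg σ m d e => by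
    obtain ⟨t, ht⟩ := (Finite.injective_iff_surjective.1 (show Function.Injective
      fun t : F => t * (m true * t) from fun a b h => by have := d.ne true; grind)) s
    have := (xt g hg σ m d {u | u ≠ t} fun x hx h k => ns x hx (by rw [h, e, k]; exact ht)).trans_lt
      (ncard_lt (a := t) (by simp))
    rw [q, ← hX] at this
    exact hX ▸ ri_half (n := 1) k.two.to_inf_right this
  by_cases h1 : P ≤ 𝒩 (C.V true)
  · obtain ⟨f, hf, f1⟩ := SetLike.not_le_iff_exists.1 hJ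
    obtain ⟨σ, m, d⟩ := dt_nv' (k.le hf) (h1 hf)
    have := Nat.mul_le_mul (rσ f hf _ _ _ d fun e => f1 (d.K0 e (p f hf))) (x4 f hf f1)
    rw [relIndex_eq_one.2 h1] at y1
    rw [t1]; nlinarith
  obtain ⟨g, hg, g1⟩ := SetLike.not_le_iff_exists.1 h1
  obtain ⟨σ, m, d⟩ := dt_nv (k.le hg) g1
  by_cases h2 : 𝒩 (C.V true) ⊓ P ≤ C.J
  · rw [relIndex_eq_one.2 h2] at y1
    have : r * X ≤ 8 := by
      by_cases e : ∀ t, σ t = t
      · exact Nat.mul_le_mul r4 (xs g hg σ m d e)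
      · exact Nat.mul_le_mul (rσ g hg _ _ _ d e) (x4 g hg fun h => g1 (C.LV _ (C.JL _ h)))
    rw [t1]; nlinarith
  obtain ⟨f, hf, f1⟩ := SetLike.not_le_iff_exists.1 h2
  obtain ⟨τ, m', d'⟩ := dt_nv' (k.le hf.2) hf.1
  have n : ¬ ∀ t, τ t = t := fun e => f1 (d'.K0 e (p f hf.2))
  have : r * X ≤ 4 := Nat.mul_le_mul (rσ f hf.2 _ _ _ d' n) (by
    by_cases e : ∀ t, σ t = t
    · exact xs g hg σ m d e
    · exact xs _ (mul_mem hg hf.2) _ _ (d.mul d') fun t => by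
        rw [RingEquiv.trans_apply, aut_uniq (s2 _) (s2 _) n e, s2])
  rw [t1]; nlinarith

theorem rank4 (C : Cf F G) [C.Cv] (q : Fintype.card F = 4) : SectionalPRankLE 2 4 G := by
  have : Fact (Nat.Prime 2) := ⟨Nat.prime_two⟩
  intro H N _ A _ hA
  have pA : IsPGroup 2 A := fun x => ⟨1, Subtype.ext (hA x x.2)⟩
  obtain ⟨P, hP, e⟩ := H8.IsSyl.exists_map_eq (f := QuotientGroup.mk' N) (H := A.comap _) (R := A)
    (by rw [map_comap_eq_self_of_surjective (QuotientGroup.mk'_surjective N)]; exact .self pA)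
  obtain ⟨S, hS, hJ⟩ := H8.exists_isSyl_ge C.pJ (le_top : C.J ≤ ⊤)
  obtain ⟨g, -, hg⟩ := hS.exists_cj_le (hP.isPGroup.map H.subtype) le_top
  let φ := (MulAut.conj g).toMonoidHom.comp H.subtype
  have inj : Function.Injective φ := (MulAut.conj g).injective.comp H.subtype_injective
  rw [← e, ← relIndex_ker, QuotientGroup.ker_mk', ← relIndex_map_map_of_injective _ _ inj]
  refine Eq2.le16 (C := C) ⟨hP.isPGroup.map _, le_trans ?_ (two_NJ hS.isPGroup hJ), ?_, ?_⟩ q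
  · rwa [cj, map_map] at hg
  · rintro _ ⟨x, -, rfl⟩
    refine H8.mem_normalizer_of_forall ?_
    rintro _ ⟨y, hy, rfl⟩
    exact ⟨_, Normal.conj_mem inferInstance y hy x, by simp only [map_mul, map_inv]⟩
  · rintro _ ⟨x, hx, rfl⟩
    refine ⟨x * x, (QuotientGroup.eq_one_iff _).1 ?_, map_mul _ _ _⟩
    simpa [pow_two] using hA _ (hP.le hx)

end Cf

end Cfsg.LT
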