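import Cfsg.Agent.LT.B4
import Cfsg.Agent.H9.SPE

/-! Fields with at least eight elements: centralizers of involutions. -/

set_option autoImplicit false
set_option linter.unusedSectionVars false

namespace Cfsg.LT

open Subgroup Cfsg.L0 Cfsg.FT Cfsg.H3

variable {G : Type*} [Group G] [Finite G] {F : Type*} [Field F] [Fintype F] [CharP F 2]

theorem norm_zp {x : G} (h : x * x = 1) : 𝒩 (zpowers x) = 𝒞₁ x := by
  refine le_antisymm (fun g hg => ?_) (cent_zpowers x ▸ cent_le_norm _)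
  obtain ⟨n, e⟩ := mem_zpowers_iff.1 (conj_mem_of_norm hg (mem_zpowers x))
  have h2 : x ^ (2 : ℤ) = 1 := by rw [zpow_two, h]
  rw [mem_cent1, ← mul_inv_eq_iff_eq_mul, ← e]
  obtain ⟨k, rfl | rfl⟩ := Int.even_or_odd' n
  · rw [zpow_mul, h2, one_zpow] at e ⊢
    exact (conj_eq_one_iff.1 e.symm).symm
  · rw [zpow_add, zpow_mul, h2, one_zpow, one_mul, zpow_one]

theorem pg_zp {x : G} (h : x * x = 1) : IsPGroup 2 (zpowers x) :=
  H8.isPGroup_zpowers (k := 1) (by simpa [pow_two] using h)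

theorem conj_sq {x : G} (h : x * x = 1) (g : G) : g * x * g⁻¹ * (g * x * g⁻¹) = 1 := by
  rw [conj_mul, h, mul_one, mul_inv_cancel]

namespace Cf

variable {C : Cf F G} {i j ε ε' : Bool} {f g g' h x y : G} {s t s' t' a c d : F} {σ τ : F ≃+* F}
  {m m' : Bool → F} {A B P T : Subgroup G}

/-- inner-diagonal action -/
abbrev In (C : Cf F G) (g : G) (m : Bool → F) : Prop := C.Dt g false (RingEquiv.refl F) m

theorem Dt.toIn (h : C.Dt g false σ m) (e : ∀ t, σ t = t) (k : ∀ i, m i = m' i) : C.In g m' := by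
  obtain rfl : σ = RingEquiv.refl F := RingEquiv.ext e
  obtain rfl := funext k
  exact h

theorem In.mul (h : C.In g m) (h' : C.In g' m') : C.In (g * g') fun i => m i * m' i :=
  (Dt.mul h h').toIn (fun _ => rfl) fun i => by simp

theorem In.inv (h : C.In g m) : C.In g⁻¹ fun i => (m i)⁻¹ := by
  obtain ⟨σ, m', k⟩ := dt_nv' (inv_mem h.mem) (inv_mem (h.nv true))
  obtain ⟨-, e, e'⟩ := (Dt.mul h k).uniq (by simpa using dt_J (one_mem C.J))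
  exact k.toIn e' fun i => eq_inv_of_mul_eq_one_right (by simpa using e i)

theorem Dt.conj (k : C.Dt g ε σ m) (h' : C.In h m') :
    C.In (g * h * g⁻¹) fun i => σ (m' (xor i ε)) := by
  obtain ⟨ε2, τ, m2, k2⟩ := ex_dt (mul_mem (mul_mem k.mem h'.mem) (inv_mem k.mem))
  obtain ⟨e1, e2, e3⟩ := (k2.mul k).uniq (by simpa using k.mul h')
  obtain rfl : ε2 = false := by cases ε <;> simpa using e1
  have e4 : ∀ t, τ t = t := fun t => by simpa using e3 (σ.symm t)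
  refine k2.toIn e4 fun i => mul_right_cancel₀ (k.ne (xor i ε)) ?_
  simpa [e4, mul_comm] using e2 (xor i ε)

variable (C) in
/-- diagonal action -/
def Dg (g : G) (m : Bool → F) : Prop :=
  (∀ i, m i ≠ 0) ∧ ∀ i, Ac (C.v i) g (m true * m false) 0 0 (m i)

theorem Dg.toIn (h : C.Dg g m) : C.In g m := by
  have az : ∀ s, g * C.z s * g⁻¹ = C.z (m true * m false * s) := fun s => by
    simpa [z] using h.2 true s 0
  refine ⟨NV (i := true) (H8.mem_normalizer_of_forall fun x hx => ?_) one_ne_zero (az 1 ▸ C.zZ _),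
    h.1, fun i s t => ⟨_, by simpa using h.2 i s t⟩, az⟩
  obtain ⟨s, t, rfl⟩ := ((C.sd _).memV x).1 hx
  exact h.2 true s t ▸ C.vm _ _ _

theorem Dg.mul (h : C.Dg g m) (h' : C.Dg g' m') : C.Dg (g * g') fun i => m i * m' i :=
  ⟨fun i => mul_ne_zero (h.1 i) (h'.1 i), fun i => ((h.2 i).mul (h'.2 i)).congr (by ring) (by ring)
    (by ring) (by ring)⟩

theorem Dg.congr (h : C.Dg g m) (e : ∀ i, m i = m' i) : C.Dg g m' := funext e ▸ h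

variable (C) in
theorem ex_dg (i : Bool) (ha : a ≠ 0) :
    ∃ g ∈ C.L i, C.Dg g fun j => if j = i then a⁻¹ else a * a := by
  obtain ⟨g, hg, e⟩ := (C.sd i).sur a 0 0 a⁻¹ (by grind)
  obtain ⟨σ, m, k⟩ := dt_nv' (NV (C.LV i hg) one_ne_zero (by
    rw [← C.v0 i, e]; simpa [C.v0] using C.zZ a)) (C.LV i hg)
  have e1 : ∀ t, m i * σ t = a⁻¹ * t := fun t => by
    obtain ⟨r, e'⟩ := k.act i 0 t
    simpa using ((C.md i).eq ((e 0 t).symm.trans (by simpa using e'))).2.symm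
  have e2 : m i = a⁻¹ := by simpa using e1 1
  have e3 : ∀ t, σ t = t := fun t => mul_left_cancel₀ (inv_ne_zero ha) (e2 ▸ e1 t)
  obtain ⟨r, h1⟩ := k.lin e3 i
  obtain ⟨r', h2⟩ := k.lin e3 (!i)
  have c1 := ((C.md i).uniq h1 e).1
  have e4 : m (!i) = a * a := by cases i <;> simp_all <;> grind
  have h3 := C.cr (!i) 0 (r' / a)
  rw [Bool.not_not] at h3
  refine ⟨_, mul_mem hg (C.JL i (C.vJ i 0 (r' / a))), fun j => by by_cases k : j = i <;> simp [k, ha], fun j => ?_⟩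
  have : (if true = i then a⁻¹ else a * a) * (if false = i then a⁻¹ else a * a) = a := by
    cases i <;> grind
  simp only [this]
  split_ifs with q
  · subst q
    simpa using e.mul ((C.sd _).ac_iff.2 ((C.sd _).abel (C.vm _ _ _)))
  · obtain rfl := Bool.eq_not.2 q
    exact (h2.mul h3).congr (by grind) (by grind) (by grind) (by grind)

variable (C) in
theorem ex_dg2 (i : Bool) (ha : a ≠ 0) (hc : c ≠ 0) : ∃ g, C.Dg g fun j =>
    if j = i then c * c / a else a * a / c := by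
  obtain ⟨g, -, h⟩ := C.ex_dg i ha
  obtain ⟨g', -, h'⟩ := C.ex_dg (!i) hc
  exact ⟨_, (h.mul h').congr fun j => by cases i <;> cases j <;> simp <;> field_simp⟩

variable (C) in
theorem ex_hz (ha : a ≠ 0) : ∃ g, C.In g (fun j => cond j (a ^ 3) (a ^ 3)⁻¹) ∧ g ∈ 𝒞 C.Z := by
  obtain ⟨g, h⟩ := C.ex_dg2 false ha (inv_ne_zero ha)
  obtain ⟨g, h⟩ := C.ex_dg2 true (inv_ne_zero ha) ha
  have k := h.toIn.toIn (m' := fun j => cond j (a ^ 3) (a ^ 3)⁻¹) (fun _ => rfl) fun j => by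
    cases j <;> simp <;> field_simp
  refine ⟨g, k, mem_cent.2 fun x hx => ?_⟩
  obtain ⟨s, rfl⟩ := mem_Z.1 hx
  have := k.az s
  rw [mul_inv_eq_iff_eq_mul] at this
  simpa [ha] using this.symm

variable (C) in
theorem card_Z_eq : ♯C.Z = Fintype.card F := by
  rw [← Nat.card_eq_fintype_card]
  exact (Nat.card_eq_of_bijective (fun p : F => (⟨_, C.zZ p⟩ : C.Z)) ⟨fun p q e => C.zinj
    (congrArg Subtype.val e), fun ⟨x, hx⟩ => (mem_Z.1 hx).imp fun _ e => Subtype.ext e.symm⟩).symm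

theorem ex_b (h : x ∈ C.J) (h' : x ∉ C.Z) : ∃ i, C.b i x ≠ 0 := by
  by_contra n; push Not at n; exact h' (Z_of_b h n)

variable [C.Cv]

theorem cmJ (hP : IsPGroup 2 P) (hn : P ≤ 𝒩 C.J) (hf : f ∈ P) (k : C.Dt f ε σ m) (hh : h ∈ 𝒩 P)
    (k' : C.In h m') : f * h * f⁻¹ * h⁻¹ ∈ C.J ⊓ P ∧ ∀ i, σ (m' (xor i ε)) = m' i := by
  have h1 : f * h * f⁻¹ * h⁻¹ ∈ P := by
    simpa [mul_assoc] using mul_mem hf (conj_mem_of_norm hh (inv_mem hf))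
  have d := In.mul (k.conj k') k'.inv
  have h2 := d.K0 (fun _ => rfl) (H8.isPGroup_iff_forall.1 hP _ h1)
  exact ⟨⟨h2, h1⟩, fun i => (mul_inv_eq_one₀ (k'.ne i)).1 ((d.uniq (dt_J h2)).2.1 i)⟩

variable (q : 4 < Fintype.card F)
include q

theorem oc (hT : IsPGroup 2 T) (h1 : T ≠ ⊥) (hJ : C.J ≤ 𝒩 T) (hZ : 𝒩 C.J ⊓ 𝒞 C.Z ≤ 𝒩 T) :
    pCoreOf 2 (𝒩 T) ≤ 𝒩 C.J ∧ ∃ x ∈ C.J ⊓ pCoreOf 2 (𝒩 T), x ∉ C.Z := by
  have pP := H7.isPGroup_pCoreOf 2 (𝒩 T)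
  have n := H7.le_normalizer_pCoreOf 2 (𝒩 T)
  have PJ := two_NJ' pP (hJ.trans n)
  refine ⟨PJ, by_contra fun k => ?_⟩
  push Not at k
  obtain ⟨l, l0, l1⟩ := exists_big (n := 4) (by omega) q
  obtain ⟨h, d, hc⟩ := C.ex_hz l0
  have hT' := hZ ⟨d.mem, hc⟩
  have : h * h ∈ pCoreOf 2 (𝒩 T) := C.ch T hT h1 ⟨mul_mem hT' hT', mem_cent.2 fun f hf => by
    obtain ⟨ε, σ, m, e⟩ := ex_dt (PJ hf)
    have u := k _ (cmJ pP PJ hf e (n hT') d).1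
    have u1 := mem_cent.1 hc _ u
    have u2 := vsq (C.ZV true u)
    calc _ = f * h * f⁻¹ * h⁻¹ * (h * (f * h * f⁻¹ * h⁻¹)) * h * f := by group
      _ = _ := by rw [← u1, ← mul_assoc _ (f * h * f⁻¹ * h⁻¹), u2, one_mul]⟩
  have d2 := In.mul d d
  have := (d2.uniq (dt_J (d2.K0 (fun _ => rfl) (H8.isPGroup_iff_forall.1 pP _ this)))).2.1 true
  simp only [cond_true] at this
  exact l1 (by grind)

theorem NZJ : 𝒩 C.Z ≤ 𝒩 C.J := by
  have pZ := C.pJ.to_le C.ZJ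
  obtain ⟨PJ, x, hx, x1⟩ := oc q pZ (ne_bot_of_mem (C.zZ 1) (C.zne one_ne_zero))
    ((le_norm _).trans NJZ) (inf_le_left.trans NJZ)
  have n := H7.le_normalizer_pCoreOf 2 (𝒩 C.Z)
  have n2 : 𝒩 C.J ≤ 𝒩 (C.J ⊓ pCoreOf 2 (𝒩 C.Z)) := le_norm_inf le_rfl (NJZ.trans n)
  have ZP : C.Z ≤ pCoreOf 2 (𝒩 C.Z) := H7.le_pCoreOf pZ (le_norm _) le_rfl
  obtain ⟨i, hi⟩ := ex_b hx.1 x1
  obtain ⟨l, l0, l1⟩ := exists_big (n := 4) (by omega) q
  obtain ⟨h, d⟩ := C.ex_dg2 i l0 (mul_ne_zero l0 l0)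
  have hy := mul_mem (conj_mem_of_norm (n2 d.toIn.mem) hx) hx
  have b1 := fun j => b_mul j (conj_mem_of_norm (n2 d.toIn.mem) hx).1 hx.1
  have b2 := fun j => d.toIn.b j hx.1
  simp only [Bool.xor_false, RingEquiv.refl_apply] at b2
  have y1 := V_of_b (i := !i) hy.1 (by rw [b1, b2]; simp; grind)
  have y2 : C.b i (h * x * h⁻¹ * x) ≠ 0 := by rw [b1, b2]; simp; grind
  rw [Bool.not_not] at y1
  generalize h * x * h⁻¹ * x = y at hy y1 y2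
  have VP : C.V i ≤ pCoreOf 2 (𝒩 C.Z) := fun u hu => by
    by_cases u0 : C.b i u = 0
    · exact ZP (Z_of_V hu u0)
    obtain ⟨g, hg, d⟩ := C.ex_dg i (div_ne_zero y2 u0)
    have h1 := conj_mem_of_norm (n2 d.toIn.mem) hy
    refine (Subgroup.mul_mem_cancel_left _ h1.2).1 (ZP (Z_of_V (mul_mem (conj_mem_of_norm (C.LV i hg) y1) hu) ?_))
    have := d.toIn.b i hy.1
    rw [Bool.xor_false] at this
    rw [b_mul _ h1.1 (C.VJ _ hu), this]; simp; grind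
  intro g hg
  obtain ⟨j, e⟩ := cj_V' ((cj_le_of_le VP (n hg)).trans PJ)
  by_cases k : j = i
  · exact NV (cj_eq_iff.1 (k ▸ e)) one_ne_zero (conj_mem_of_norm hg (C.zZ 1))
  obtain rfl := Bool.eq_not.2 k
  have := cj_V' ((cj_le_of_le (e ▸ cj_le_of_le VP (n hg)) (n hg)).trans PJ)
  exact NJ_of fun j => by
    by_cases k : j = i
    exacts [k ▸ ⟨_, e⟩, Bool.eq_not.2 k ▸ this]

theorem CzJ (hs : s ≠ 0) : 𝒞₁ (C.z s) ≤ 𝒩 C.J := by
  have : Fact (Nat.Prime 2) := ⟨Nat.prime_two⟩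
  have e := norm_zp (C.zsq s)
  have JX := C.JZ.trans (cent_le_cent1 (C.zZ s))
  obtain ⟨PJ, x, hx, x1⟩ := oc q (pg_zp (C.zsq s)) (ne_bot_of_mem (mem_zpowers _) (C.zne hs))
    (e ▸ JX) (e ▸ inf_le_right.trans (cent_le_cent1 (C.zZ s)))
  rw [e] at PJ hx
  have n := H7.le_normalizer_pCoreOf 2 (𝒞₁ (C.z s))
  have pP := H7.isPGroup_pCoreOf 2 (𝒞₁ (C.z s))
  generalize pCoreOf 2 (𝒞₁ (C.z s)) = P at *
  have ZP : C.Z ≤ P := fun u hu => by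
    obtain ⟨i, hi⟩ := ex_b hx.1 x1
    obtain ⟨t, rfl⟩ := mem_Z.1 hu
    have := cm' (!i) hx.1 0 (t / C.b i x)
    rw [Bool.not_not, mul_div_cancel₀ _ hi] at this
    rw [← this]; nth_rewrite 2 [← (C.md _).inv]
    simpa [mul_assoc] using P.mul_mem hx.2 (conj_mem_of_norm (n (JX (C.vJ _ _ _))) (P.inv_mem hx.2))
  have c : ∀ f ∈ P, ∀ ε σ m, C.Dt f ε σ m → ∀ l : F, l ≠ 0 →
      σ (cond (xor true ε) (l ^ 3) (l ^ 3)⁻¹) = l ^ 3 := fun f hf ε σ m d l l0 => by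
    obtain ⟨h, d', hc⟩ := C.ex_hz l0
    exact (cmJ pP PJ hf d (n (cent_le_cent1 (C.zZ s) hc)) d').2 true
  have c0 : ∀ f ∈ P, ∀ σ m, C.Dt f false σ m → f ∈ C.J := fun f hf σ m d =>
    d.K0 (fix_cube q fun l => by
      by_cases l0 : l = 0
      exacts [by simp [l0], c f hf _ _ _ d l l0]) (H8.isPGroup_iff_forall.1 pP f hf)
  have c1 : ∀ f ∈ P, f ∉ C.J → ∃ σ m, C.Dt f true σ m := fun f hf f1 => by
    obtain ⟨ε, σ, m, d⟩ := ex_dt (PJ hf)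
    cases ε; exacts [absurd (c0 f hf σ m d) f1, ⟨σ, m, d⟩]
  intro g hg
  have AP := cj_le_of_le ZP (n hg)
  have sq : ∀ x ∈ cj g C.Z, x * x = 1 := by
    rintro _ ⟨x, hx, rfl⟩; exact conj_sq (vsq (C.ZV true hx)) g
  have AJ : cj g C.Z ≤ C.J := fun f hf => by_contra fun f1 => by
    obtain ⟨σ, m, d⟩ := c1 f (AP hf) f1
    have ab := (elem sq).2 f hf
    have h1 := card_Fx (A := C.J ⊓ cj g C.Z) d (fun x hx => d.fix hx.1 (sq x hx.2) (ab x hx.2))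
      fun x hx => ab x hx.2
    have h2 := fx_sq (m true * m false) (σ := σ) fun k => by
      obtain ⟨l, l0, l1⟩ := exists_big (n := 4) (by omega) q
      have := c f (AP hf) _ _ _ d l l0
      rw [k] at this
      simp at this
      exact l1 (by grind)
    have h3 := card_le_ri (ri_two (A := cj g C.Z) (B := C.J) fun x hx y hy x1 y1 => by
      obtain ⟨σ, m, d⟩ := c1 _ (AP (inv_mem hx)) fun k => x1 (inv_mem_iff.1 k)
      obtain ⟨σ', m', d'⟩ := c1 _ (AP hy) y1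
      exact c0 _ (AP (mul_mem (inv_mem hx) hy)) _ _ (d.mul d'))
    rw [card_cj, C.card_Z_eq] at h3
    nlinarith
  obtain ⟨i, hi⟩ := le_V AJ sq
  obtain ⟨j, hj⟩ := cj_V' (g := g⁻¹) (i := i) (le_cj_iff.1 ((le_norm_of_cent (C.sd i).abel hi).trans
    (cj_norm g C.Z ▸ cj_mono g (NZJ q))))
  obtain ⟨T, hT, JT⟩ := H8.exists_isSyl_ge C.pJ ((C.JL i).trans (C.LV i))
  obtain ⟨l, hl, k⟩ := hT.exists_cj_le (H8.isPGroup_cj C.pJ g) (by
    rw [← cj_cj_inv g (C.V i), hj, ← cj_norm]; exact cj_mono g ((C.JL j).trans (C.LV j)))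
  have k2 : l * g ∈ 𝒩 C.J := NJ_of fun i => cj_V' ((cj_mono _ (C.VJ i)).trans
    (cj_mul l g _ ▸ k.trans (two_NJ hT.isPGroup JT)))
  refine (mul_mem_cancel_left (NV hl hs ?_)).1 k2
  have := conj_mem_of_norm (NJZ k2) (C.zZ s)
  rwa [mul_assoc l, mem_cent1.1 hg, mul_inv_rev, ← mul_assoc, ← mul_assoc, mul_inv_cancel_right] at this

theorem TI (hx : x ∈ C.Z) (x1 : x ≠ 1) (e : g * x * g⁻¹ ∈ C.Z) : g ∈ 𝒩 C.J := by
  obtain ⟨s, rfl⟩ := mem_Z.1 hx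
  obtain ⟨t, e⟩ := mem_Z.1 e
  have s0 : s ≠ 0 := fun k => x1 (by rw [k, C.z0])
  have t0 : t ≠ 0 := fun k => x1 (by rwa [k, C.z0, conj_eq_one_iff] at e)
  obtain ⟨n, -, d⟩ := C.ex_dg true (div_ne_zero s0 t0)
  refine (mul_mem_cancel_left d.toIn.mem).1 (CzJ q s0 (mem_cent1.2 (mul_inv_eq_iff_eq_mul.1 ?_)))
  rw [show n * g * C.z s * (n * g)⁻¹ = n * (g * C.z s * g⁻¹) * n⁻¹ by group, e, d.toIn.az]
  congr 1; simp; field_simp

theorem CZ (hx : x ∈ C.Z) (x1 : x ≠ 1) : 𝒞₁ x ≤ 𝒩 C.J := fun g hg =>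
  TI q hx x1 (by rwa [mem_cent1.1 hg, mul_inv_cancel_right])

omit q [C.Cv] in
theorem inv_cj (hx : x ∈ C.J) (e : x * x = 1) (x1 : x ≠ 1) : ∃ i, ∃ l ∈ C.L i, x = l * C.z 1 * l⁻¹ :=
  (inv_mem_V hx e).imp fun i hi => trans i hi x1

omit [C.Cv] in
theorem Dt.two (d : C.Dt f ε σ m) (e : f * f = 1) :
    ∃ s t, s ≠ 0 ∧ t ≠ 0 ∧ s ≠ t ∧ f * C.z s = C.z s * f ∧ f * C.z t = C.z t * f := by
  obtain ⟨s, t, h1, h2, h3, h4, h5⟩ := fx_two (c := m true * m false) (σ := σ) (fun t => C.zinj (by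
    rw [← d.az, ← d.az, show f * (f * C.z t * f⁻¹) * f⁻¹ = f * f * C.z t * (f * f)⁻¹ by group, e]
    simp)) q
  exact ⟨s, t, h1, h2, h3, mul_inv_eq_iff_eq_mul.1 (by rw [d.az, h4]),
    mul_inv_eq_iff_eq_mul.1 (by rw [d.az, h5])⟩

theorem DN0 (e : g * C.z 1 * g⁻¹ ∈ 𝒩 C.J) : g * C.z 1 * g⁻¹ ∈ C.J := by
  by_contra f1
  obtain ⟨ε, σ, m, d⟩ := ex_dt e
  have z1 := C.zne (one_ne_zero (α := F))
  have cm : ∀ r, g * C.z 1 * g⁻¹ * C.z r = C.z r * (g * C.z 1 * g⁻¹) →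
      g⁻¹ * C.z r * g * C.z 1 = C.z 1 * (g⁻¹ * C.z r * g) := fun r k => by
    calc _ = g⁻¹ * (C.z r * (g * C.z 1 * g⁻¹)) * g := by group
      _ = _ := by rw [← k]; group
  have key : ∀ r, r ≠ 0 → g * C.z 1 * g⁻¹ * C.z r = C.z r * (g * C.z 1 * g⁻¹) → ∀ ε σ m,
      C.Dt (g⁻¹ * C.z r * g) ε σ m → ¬ ∀ t, σ t = t := fun r r0 k ε σ m d h => by
    have c1 := C.zinj ((d.az 1).symm.trans (mul_inv_eq_iff_eq_mul.2 (cm r k)))
    have : cj g C.Z ≤ 𝒩 C.J := le_trans (by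
      rintro _ ⟨x, hx, rfl⟩
      obtain ⟨t, rfl⟩ := mem_Z.1 hx
      have := d.az t
      rw [h, show m true * m false * t = t by grind, mul_inv_eq_iff_eq_mul] at this
      rw [mem_cent1]
      calc _ = g * (C.z t * (g⁻¹ * C.z r * g)) * g⁻¹ := by simp [mul_assoc]
        _ = _ := by rw [← this]; simp [mul_assoc]) (CzJ q r0)
    have h4 := card_four this (by rintro _ ⟨x, hx, rfl⟩; exact conj_sq (vsq (C.ZV true hx)) g)
    rw [card_cj, C.card_Z_eq] at h4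
    obtain ⟨_, ⟨hu, u, hu', rfl⟩, u1⟩ := exists_ne_one (ne_bot_of_card (A := C.J ⊓ cj g C.Z) (by omega))
    obtain ⟨i, l, hl, k⟩ := inv_cj hu (conj_sq (vsq (C.ZV true hu')) g) u1
    have := TI q (g := l⁻¹ * g) hu' (fun k => u1 (by rw [k, map_one])) (by
      rw [show l⁻¹ * g * u * (l⁻¹ * g)⁻¹ = l⁻¹ * ((MulAut.conj g).toMonoidHom u) * l by
        simp [mul_assoc], k]
      simpa [mul_assoc] using C.zZ 1)
    have := conj_mem_of_norm (C.LV i hl) (C.ZV i (conj_mem_of_norm (NJZ this) (C.zZ 1)))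
    exact f1 (C.VJ i (by simpa [mul_assoc] using this))
  obtain ⟨s, t, s0, t0, st, h1, h2⟩ := d.two q (conj_sq (C.zsq 1) g)
  obtain ⟨ε1, σ1, m1, d1⟩ := ex_dt (CzJ q one_ne_zero (mem_cent1.2 (cm s h1)))
  obtain ⟨ε2, σ2, m2, d2⟩ := ex_dt (CzJ q one_ne_zero (mem_cent1.2 (cm t h2)))
  have sq : ∀ r, g⁻¹ * C.z r * g * (g⁻¹ * C.z r * g) ∈ C.J := fun r => by
    have := conj_sq (C.zsq r) g⁻¹
    rw [inv_inv] at this
    exact this ▸ one_mem _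
  have d3 := d1.mul d2
  rw [show g⁻¹ * C.z s * g * (g⁻¹ * C.z t * g) = g⁻¹ * C.z (s + t) * g by rw [C.za]; group] at d3
  refine key (s + t) (fun k => st (CharTwo.add_eq_zero.1 k)) (by
    rw [C.za, ← mul_assoc, h1, mul_assoc, h2, ← mul_assoc]) _ _ _ d3 fun u => ?_
  rw [RingEquiv.trans_apply, ← aut_uniq (d1.sq (sq s)).1 (d2.sq (sq t)).1 (key s s0 h1 _ _ _ d1)
    (key t t0 h2 _ _ _ d2), (d1.sq (sq s)).1]

theorem DN (hx : x ∈ C.J) (e : x * x = 1) (k : g * x * g⁻¹ ∈ 𝒩 C.J) : g * x * g⁻¹ ∈ C.J := by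
  by_cases x1 : x = 1
  · simp [x1]
  obtain ⟨i, l, -, rfl⟩ := inv_cj hx e x1
  simpa [mul_assoc] using DN0 q (g := g * l) (by simpa [mul_assoc] using k)

theorem fus (hA : 𝒩 C.J ≤ A) (hL : ∀ i, C.L i ≤ A) (hx : x ∈ C.J) (e : x * x = 1) (x1 : x ≠ 1)
    (k : g * x * g⁻¹ ∈ C.J) : g ∈ A := by
  obtain ⟨j, l', hl', k⟩ := inv_cj k (conj_sq e g) (by rwa [Ne, conj_eq_one_iff])
  obtain ⟨i, l, hl, rfl⟩ := inv_cj hx e x1
  have : l'⁻¹ * g * l ∈ A := hA (CzJ q one_ne_zero (mem_cent1.2 (by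
    calc _ = l'⁻¹ * (g * (l * C.z 1 * l⁻¹) * g⁻¹) * g * l := by group
      _ = _ := by rw [k]; group)))
  rwa [mul_mem_cancel_right (hL i hl), mul_mem_cancel_left (inv_mem (hL j hl'))] at this

theorem OI (hf : f ∈ 𝒩 C.J) (f1 : f ∉ C.J) (e : f * f = 1) :
    ∃ r ∈ C.J, r ≠ 1 ∧ r * r = 1 ∧ ∀ c ∈ 𝒞₁ f, c * r * c⁻¹ ∈ C.J ⊓ 𝒞₁ f := by
  have : Fact (Nat.Prime 2) := ⟨Nat.prime_two⟩
  obtain ⟨ε, σ, m, d⟩ := ex_dt hf
  obtain ⟨r, -, r0, -, -, hr, -⟩ := d.two q e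
  have zr : C.z r ∈ C.J ⊓ 𝒞₁ f := ⟨C.ZJ (C.zZ r), mem_cent1.2 hr.symm⟩
  have ch := C.ch _ (pg_zp e) (ne_bot_of_mem (mem_zpowers f) fun k => f1 (k ▸ one_mem _))
  rw [norm_zp e] at ch
  have n := H7.le_normalizer_pCoreOf 2 (𝒞₁ f)
  have pR := H7.isPGroup_pCoreOf 2 (𝒞₁ f)
  have RC := H7.pCoreOf_le 2 (𝒞₁ f)
  generalize pCoreOf 2 (𝒞₁ f) = R at *
  have RJ : R ⊔ C.J ⊓ 𝒞₁ f ≤ 𝒩 C.J := by
    by_contra k
    obtain ⟨y, hy, y1, y2⟩ := H8.exists_mem_normalizer_not_mem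
      (pgroup_sup (inf_le_right.trans n) pR C.pJ.to_inf_left)
      (inf_le_left : (R ⊔ C.J ⊓ 𝒞₁ f) ⊓ 𝒩 C.J ≤ _) fun e => k (e ▸ inf_le_right)
    have yC := sup_le RC inf_le_right hy
    have l : C.J ⊓ 𝒞₁ f ≤ (R ⊔ C.J ⊓ 𝒞₁ f) ⊓ 𝒩 C.J := le_inf le_sup_right (inf_le_left.trans (le_norm _))
    have h1 := DN q zr.1 (C.zsq r) (conj_mem_of_norm y1 (l zr)).2
    have h2 := conj_sq (C.zsq r) y
    refine y2 ⟨hy, TI q (C.zZ r) (C.zne r0) ?_⟩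
    cases ε
    · obtain ⟨i, hi⟩ := inv_mem_V h1 h2
      obtain ⟨t, ht⟩ : ∃ t, t + m (!i) * σ t ≠ 0 := by
        by_contra k
        push Not at k
        have := k 1
        exact f1 (d.K0 (fun t => by have := k t; grind) ⟨1, by simpa [pow_two] using e⟩)
      have u0 := conj_mem_of_norm (d.nv _) (C.vm (!i) 0 t)
      have u1 := mul_mem (C.vm (!i) 0 t) u0
      have u2 : C.b (!i) (C.v (!i) 0 t * (f * C.v (!i) 0 t * f⁻¹)) ≠ 0 := by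
        have := d.b (!i) (C.vJ (!i) 0 t)
        rw [Bool.xor_false] at this
        rwa [b_mul _ (C.vJ _ _ _) (C.VJ _ u0), this, b_v]
      have u3 : C.v (!i) 0 t * (f * C.v (!i) 0 t * f⁻¹) ∈ 𝒞₁ f := by
        rw [mem_cent1]
        nth_rewrite 2 [mem_cent.1 ((C.sd _).abel u0) _ (C.vm _ 0 t)]
        simp only [inv_eq_of_mul_eq_one_left e, ← mul_assoc, e, one_mul]
        rw [mul_assoc _ f, e, mul_one]
      generalize C.v (!i) 0 t * (f * C.v (!i) 0 t * f⁻¹) = u at *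
      have h3 := Jz (DN q (g := y⁻¹) (C.VJ _ u1) (vsq u1) (conj_mem_of_norm (inv_mem y1)
        (l ⟨C.VJ _ u1, u3⟩)).2) r
      obtain ⟨s', t', k⟩ := ((C.sd i).memV _).1 hi
      have h4 := cm' i (C.VJ _ u1) s' t'
      rw [← k, show u * (y * C.z r * y⁻¹) * u⁻¹ = y * (y⁻¹ * u * y⁻¹⁻¹ * C.z r * (y⁻¹ * u * y⁻¹⁻¹)⁻¹) * y⁻¹
        by group, h3, h2, ← C.z0] at h4
      rw [k, (mul_eq_zero.1 (C.zinj h4).symm).resolve_left u2, C.v0]; exact C.zZ _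
    · exact d.fix h1 h2 (mem_cent1.1 (mul_mem (mul_mem yC zr.2) (inv_mem yC))).symm
  obtain ⟨u, hu, u1, u2⟩ := H9.exists_mem_pow_eq_one_of_dvd (H8.dvd_card_of_ne_bot
    (pR.to_inf_left (K := C.J ⊓ 𝒞₁ f)) fun k => C.zne r0 (eq_one_of_mem k ⟨ch ⟨zr.2,
      le_cent_of_inf_eq_bot (inf_le_right.trans n) (le_norm_inf (le_sup_left.trans RJ) (le_norm_of_le RC))
        ((inf_comm _ _).trans k) zr⟩, zr⟩))
  rw [pow_two] at u2
  exact ⟨u, hu.2.1, u1, u2, fun c hc => ⟨DN q hu.2.1 u2 (RJ (mem_sup_left (conj_mem_of_norm (n hc) hu.1))),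
    RC (conj_mem_of_norm (n hc) hu.1)⟩⟩

theorem OI1 (hA : 𝒩 C.J ≤ A) (hL : ∀ i, C.L i ≤ A) (hf : f ∈ 𝒩 C.J) (f1 : f ≠ 1) (e : f * f = 1) :
    𝒞₁ f ≤ A := fun c hc => by
  by_cases k : f ∈ C.J
  · exact fus q hA hL k e f1 (by rwa [mem_cent1.1 hc, mul_inv_cancel_right])
  · obtain ⟨r, h1, h2, h3, h4⟩ := OI q hf k e
    exact fus q hA hL h1 h3 h2 (h4 c hc).1

theorem OI2 (d : C.Dt f true σ m) (e : f * f = 1) : 𝒞₁ f ≤ 𝒩 C.J := fun c hc => by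
  obtain ⟨r, h1, h2, h3, h4⟩ := OI q d.mem (fun k => by simpa using (d.uniq (dt_J k)).1) e
  exact TI q (d.fix h1 h3 (by simpa using (mem_cent1.1 (h4 1 (one_mem _)).2).symm)) h2
    (d.fix (h4 c hc).1 (conj_sq h3 c) (mem_cent1.1 (h4 c hc).2).symm)

end Cf

end Cfsg.LT
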